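import Cfsg.Agent.H765.EPS.SpY
import Cfsg.Agent.H765.EPS.PSVar

/-!
# `Sp₈(2)` as a point stabiliser: the group theoretic part (helper765)
-/

set_option autoImplicit false
set_option linter.unusedSectionVars false

namespace Cfsg.Agent.H765.EPS

open Subgroup Cfsg.Agent.H284

theorem card_sp {K : Type*} [Field K] [Fintype K] (hK : Fintype.card K = 2) :
    Nat.card (Matrix.symplecticGroup (Fin 4) K) = 2 ^ 16 * (3 ^ 5 * (5 ^ 2 * (7 * 17))) := by
  rw [Cfsg.Agent.S0245.result hK 4]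
  simp [Finset.prod_range_succ]

theorem fact_aux (l e m : ℕ) (hl : l.Prime) (hm : ¬ l ∣ m) (hm0 : m ≠ 0) : (l ^ e * m).factorization l = e := by
  rw [Nat.factorization_mul (pow_ne_zero _ hl.ne_zero) hm0, Finsupp.add_apply, hl.factorization_pow,
    Finsupp.single_eq_same, Nat.factorization_eq_zero_of_not_dvd hm, add_zero]

theorem pow_neg_one : ∀ m < 17, m ≠ 0 → m ≠ 1 → ∃ k < 16, m ^ k % 17 = 16 := by decide +kernel

theorem final_abs {K : Type*} [Field K] [Fintype K] (hK : Fintype.card K = 2) {Q : Type*} [Group Q] [Finite Q]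
    {A : Subgroup Q} {Γ : Subgroup (MulAut Q)} (h : EPT A Γ)
    (hF : ∀ L : Subgroup Q, L ≤ A → (∀ σ ∈ Γ, ∀ k ∈ L, σ k ∈ L) → (∀ a ∈ L, ∀ b ∈ L, a * b = b * a) → L = ⊥)
    (ψ : Matrix.symplecticGroup (Fin 4) K →* Q) (hψ : Function.Injective ψ) (hr : ψ.range = A)
    {c : Q} (hc17 : c ^ 17 = 1) (hcA : c ∉ A) (hcy : c * ψ (Y0 K) = ψ (Y0 K) * c)
    (hinv : ∀ g : Matrix.symplecticGroup (Fin 4) K, g * Y0 K * g⁻¹ = Y0 K ^ 16 → ψ g * c * (ψ g)⁻¹ = c⁻¹) : False := by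
  have h17 : Nat.Prime 17 := by norm_num
  have hmem : ∀ a, a ∈ A ↔ ∃ g, ψ g = a := by
    intro a
    rw [← hr]
    exact MonoidHom.mem_range
  have hcardA : Nat.card A = 2 ^ 16 * (3 ^ 5 * (5 ^ 2 * (7 * 17))) := by
    rw [← card_sp hK, ← hr]
    exact (Nat.card_congr (MonoidHom.ofInjective hψ).toEquiv).symm
  have hord : orderOf (ψ (Y0 K)) = 17 := by rw [orderOf_injective ψ hψ, orderOf_Y0 hK]
  have hY : Nat.card (zpowers (ψ (Y0 K))) = 17 := by rw [Nat.card_zpowers, hord]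
  have hyA : ψ (Y0 K) ∈ A := (hmem _).2 ⟨_, rfl⟩
  have hYA : zpowers (ψ (Y0 K)) ≤ A := by rwa [zpowers_le]
  have hYc : ∀ a ∈ A, (∀ y ∈ zpowers (ψ (Y0 K)), a * y = y * a) → a ∈ zpowers (ψ (Y0 K)) := by
    intro a ha hay
    obtain ⟨g, rfl⟩ := (hmem a).1 ha
    have h1 := hay _ (mem_zpowers _)
    rw [← map_mul, ← map_mul] at h1
    obtain ⟨j, rfl⟩ := Y0_cent hK (hψ h1)
    rw [map_pow]
    exact pow_mem (mem_zpowers _) j
  obtain ⟨u, hu, hun, huY⟩ := PS_norm' h hF h17 hYA hY hYc (by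
    intro l hl hld hls R hRA hRp hRn hRne hmod
    rw [hcardA] at hld hmod
    have h1 : l = 2 ∨ l = 3 ∨ l = 5 ∨ l = 7 := by
      rcases (Nat.Prime.dvd_mul hl).1 hld with h1 | h1
      · left
        exact (Nat.prime_dvd_prime_iff_eq hl Nat.prime_two).1 (hl.dvd_of_dvd_pow h1)
      · rcases (Nat.Prime.dvd_mul hl).1 h1 with h1 | h1
        · right; left
          exact (Nat.prime_dvd_prime_iff_eq hl Nat.prime_three).1 (hl.dvd_of_dvd_pow h1)
        · rcases (Nat.Prime.dvd_mul hl).1 h1 with h1 | h1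
          · right; right; left
            exact (Nat.prime_dvd_prime_iff_eq hl Nat.prime_five).1 (hl.dvd_of_dvd_pow h1)
          · rcases (Nat.Prime.dvd_mul hl).1 h1 with h1 | h1
            · right; right; right
              exact (Nat.prime_dvd_prime_iff_eq hl (by norm_num)).1 h1
            · exact absurd ((Nat.prime_dvd_prime_iff_eq hl h17).1 h1) hls
    rcases h1 with rfl | rfl | rfl | rfl
    · -- the prime 2
      apply hRne
      have h2 : R.comap ψ = ⊥ := by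
        apply Y0_two hK
        · intro g
          obtain ⟨k, hk⟩ := hRp ⟨ψ g, g.2⟩
          refine ⟨k, Subtype.ext (hψ ?_)⟩
          have h3 : (ψ g) ^ 2 ^ k = 1 := Subtype.ext_iff.1 hk
          show ψ ((g : Matrix.symplecticGroup (Fin 4) K) ^ 2 ^ k) = ψ 1
          rw [map_pow, h3, map_one]
        · intro r hr'
          have h3 := hRn _ (inv_mem (mem_zpowers (ψ (Y0 K)))) _ hr'
          rw [mem_comap, map_mul, map_mul, map_inv]
          rwa [inv_inv] at h3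
      rw [Subgroup.eq_bot_iff_forall]
      intro a ha
      obtain ⟨g, rfl⟩ := (hmem a).1 (hRA ha)
      have h3 : g ∈ R.comap ψ := ha
      rw [h2, mem_bot] at h3
      rw [h3, map_one]
    · have h2 : (2 ^ 16 * (3 ^ 5 * (5 ^ 2 * (7 * 17)))) = 3 ^ 5 * (2 ^ 16 * (5 ^ 2 * (7 * 17))) := by norm_num
      rw [h2, fact_aux 3 5 _ Nat.prime_three (by norm_num) (by norm_num)] at hmod
      revert hmod
      decide
    · have h2 : (2 ^ 16 * (3 ^ 5 * (5 ^ 2 * (7 * 17)))) = 5 ^ 2 * (2 ^ 16 * (3 ^ 5 * (7 * 17))) := by norm_num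
      rw [h2, fact_aux 5 2 _ Nat.prime_five (by norm_num) (by norm_num)] at hmod
      revert hmod
      decide
    · have h2 : (2 ^ 16 * (3 ^ 5 * (5 ^ 2 * (7 * 17)))) = 7 ^ 1 * (2 ^ 16 * (3 ^ 5 * (5 ^ 2 * 17))) := by norm_num
      rw [h2, fact_aux 7 1 _ (by norm_num) (by norm_num) (by norm_num)] at hmod
      revert hmod
      decide) (c := c) (by
    rw [zpowers_le, mem_cj, mul_assoc, ← hcy, inv_mul_cancel_left]
    exact hyA) hcA
  obtain ⟨g, rfl⟩ := (hmem u).1 (mem_inf.1 hu).1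
  -- `g` acts on `⟨Y0⟩`
  obtain ⟨m, hm17, hm⟩ : ∃ m : ℕ, m < 17 ∧ g * Y0 K * g⁻¹ = Y0 K ^ m := by
    have h1 := hun _ (mem_zpowers _)
    obtain ⟨z, hz⟩ := mem_zpowers_iff.1 h1
    have h2 : g * Y0 K * g⁻¹ = Y0 K ^ z := by
      apply hψ
      rw [map_mul, map_mul, map_inv, map_zpow, hz]
    refine ⟨(z % 17).toNat, ?_, ?_⟩
    · have := Int.emod_lt_of_pos z (show (0 : ℤ) < 17 by norm_num)
      omega
    · rw [h2, ← zpow_natCast, Int.toNat_of_nonneg (Int.emod_nonneg z (by norm_num))]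
      have h3 := zpow_mod_orderOf (Y0 K) z
      rw [orderOf_Y0 hK] at h3
      exact h3.symm
  have hm0 : m ≠ 0 := by
    rintro rfl
    rw [pow_zero, mul_inv_eq_one] at hm
    have h1 : Y0 K = 1 := by
      have := mul_eq_left.1 hm
      exact this
    exact Y0_ne hK h1
  have hm1 : m ≠ 1 := by
    rintro rfl
    rw [pow_one, mul_inv_eq_iff_eq_mul] at hm
    obtain ⟨j, rfl⟩ := Y0_cent hK hm
    apply huY
    rw [map_pow]
    exact pow_mem (mem_zpowers _) j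
  obtain ⟨k, _, hk⟩ := pow_neg_one m hm17 hm0 hm1
  have hgk : ∀ k : ℕ, g ^ k * Y0 K * (g ^ k)⁻¹ = Y0 K ^ (m ^ k) := by
    intro k
    induction k with
    | zero => simp
    | succ k ih =>
      have e1 : g ^ (k + 1) * Y0 K * (g ^ (k + 1))⁻¹ = g * (g ^ k * Y0 K * (g ^ k)⁻¹) * g⁻¹ := by
        rw [pow_succ']; group
      rw [e1, ih, ← conj_pow, hm, ← pow_mul, pow_succ']
  have hgk16 : g ^ k * Y0 K * (g ^ k)⁻¹ = Y0 K ^ 16 := by
    rw [hgk, ← hk]
    have h3 := pow_mod_orderOf (Y0 K) (m ^ k)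
    rw [orderOf_Y0 hK] at h3
    exact h3.symm
  have hcu := hinv _ hgk16
  have huk : ψ (g ^ k) ∈ A ⊓ cj c A := by
    rw [map_pow]
    exact pow_mem hu k
  have h1 := mem_cj.1 (mem_inf.1 huk).2
  have h2 : (ψ (g ^ k))⁻¹ * (c⁻¹ * ψ (g ^ k) * c) ∈ A := A.mul_mem (A.inv_mem (mem_inf.1 huk).1) h1
  have h3 : (ψ (g ^ k))⁻¹ * (c⁻¹ * ψ (g ^ k) * c) = c ^ 2 := by
    rw [← hcu]
    have h4 : ψ (g ^ k) * c * (ψ (g ^ k))⁻¹ = c⁻¹ := hcu
    calc (ψ (g ^ k))⁻¹ * (ψ (g ^ k) * c * (ψ (g ^ k))⁻¹ * ψ (g ^ k) * c) = c * c := by group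
      _ = c ^ 2 := (pow_two c).symm
  rw [h3] at h2
  apply hcA
  have h5 : c = (c ^ 2) ^ 9 := by
    rw [← pow_mul]
    calc c = 1 * c := (one_mul c).symm
      _ = c ^ 17 * c := by rw [hc17]
      _ = c ^ (2 * 9) := by rw [← pow_succ]
  rw [h5]
  exact A.pow_mem h2 9

end Cfsg.Agent.H765.EPS
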