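import Mathlib

/-!
# The modules of dimension 16 of `Sp₈(2)`: basic relations (helper765)

`t x`, `0 < x < 256`, are the transvections; the vector `x` has the coordinates of its bits, `u₁ .. u₄` the bits `0 .. 3`,
`w₁ .. w₄` the bits `4 .. 7`.
-/

set_option autoImplicit false
set_option linter.unusedSectionVars false

namespace Cfsg.Agent.H765.EPS

/-- parity of the four lowest bits -/
def par (x : ℕ) : Bool := (x.testBit 0 ^^ x.testBit 1) ^^ (x.testBit 2 ^^ x.testBit 3)

/-- the symplectic form -/
def sf (x y : ℕ) : Bool := par ((x &&& 15) &&& (y >>> 4)) ^^ par ((x >>> 4) &&& (y &&& 15))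

/-- the transvection -/
def act (x y : ℕ) : ℕ := if sf x y = true then y ^^^ x else y

/-- words of transvections -/
def aw (l : List ℕ) (y : ℕ) : ℕ := l.foldr act y

/-- nonzero vectors -/
def Ok (x : ℕ) : Prop := 0 < x ∧ x < 256

instance (x : ℕ) : Decidable (Ok x) := inferInstanceAs (Decidable (_ ∧ _))

def OkL (l : List ℕ) : Prop := ∀ x ∈ l, Ok x

instance (l : List ℕ) : Decidable (OkL l) := inferInstanceAs (Decidable (∀ x ∈ l, Ok x))

theorem sf_self (x : ℕ) : sf x x = false := by
  unfold sf
  rw [Nat.land_comm (x >>> 4) (x &&& 15)]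
  exact Bool.xor_self _

theorem Ok.act {x y : ℕ} (hx : Ok x) (hy : Ok y) : Ok (act x y) := by
  unfold EPS.act
  split_ifs with h
  · refine ⟨?_, Nat.xor_lt_two_pow (n := 8) hy.2 hx.2⟩
    rw [Nat.pos_iff_ne_zero]
    intro e
    have : y = x := Nat.xor_eq_zero_iff.1 e
    rw [this, sf_self] at h
    exact Bool.noConfusion h
  · exact hy

theorem OkL.aw {l : List ℕ} (hl : OkL l) {y : ℕ} (hy : Ok y) : Ok (aw l y) := by
  induction l with
  | nil => exact hy
  | cons x l ih =>
    exact (hl x (List.mem_cons_self)).act (ih fun z hz => hl z (List.mem_cons_of_mem _ hz))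

variable {F V : Type*} [Field F] [AddCommGroup V] [Module F V]

/-- The relations between the transvections in a linear representation of `Sp₈(2)` of degree 16 in characteristic 2. -/
structure Rep (t : ℕ → Module.End F V) : Prop where
  sq : ∀ x, Ok x → t x * t x = 1
  cj : ∀ x y, Ok x → Ok y → t x * t y * t x = t (act x y)
  seven : t 1 * t 4 * t 8 * t 5 * t 9 * t 12 * t 13 = 1
  irr : ∀ U : Submodule F V, (∀ x, Ok x → ∀ v ∈ U, t x v ∈ U) → U = ⊥ ∨ U = ⊤
  nt : t 1 ≠ 1
  rank : Module.finrank F V = 16
  two : (2 : F) = 0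

/-- conjugation as a ring homomorphism -/
def conjHom {R : Type*} [Ring R] (u : Rˣ) : R →+* R where
  toFun r := u * r * ↑u⁻¹
  map_one' := by simp
  map_mul' a b := by simp [mul_assoc]
  map_zero' := by simp
  map_add' a b := by simp [mul_add, add_mul]

theorem conjHom_apply {R : Type*} [Ring R] (u : Rˣ) (r : R) : conjHom u r = u * r * ↑u⁻¹ := rfl

theorem conjHom_mul {R : Type*} [Ring R] (u v : Rˣ) (r : R) : conjHom (u * v) r = conjHom u (conjHom v r) := by
  simp only [conjHom_apply, mul_inv_rev, Units.val_mul, mul_assoc]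

namespace Rep

variable {t : ℕ → Module.End F V} (h : Rep t)

include h

theorem add_self (r : Module.End F V) : r + r = 0 := by
  rw [← two_smul F r, h.two, zero_smul]

theorem add_selfV (v : V) : v + v = 0 := by
  rw [← two_smul F v, h.two, zero_smul]

omit h in
open Classical in
/-- the unit `t x` -/
noncomputable def ux (t : ℕ → Module.End F V) (x : ℕ) : (Module.End F V)ˣ :=
  if hx : t x * t x = 1 then ⟨t x, t x, hx, hx⟩ else 1

theorem ux_val {x : ℕ} (hx : Ok x) : ((ux t x : (Module.End F V)ˣ) : Module.End F V) = t x := by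
  unfold ux
  rw [dif_pos (h.sq x hx)]

theorem ux_inv {x : ℕ} (hx : Ok x) : (((ux t x)⁻¹ : (Module.End F V)ˣ) : Module.End F V) = t x := by
  unfold ux
  rw [dif_pos (h.sq x hx)]
  rfl

omit h in
/-- the unit of a word -/
noncomputable def wu (t : ℕ → Module.End F V) (l : List ℕ) : (Module.End F V)ˣ := (l.map (ux t)).prod

theorem cjt {l : List ℕ} (hl : OkL l) {y z : ℕ} (hy : Ok y) (e : aw l y = z) : conjHom (wu t l) (t y) = t z := by
  subst e
  induction l with
  | nil =>
    show conjHom 1 (t y) = t y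
    rw [conjHom_apply]
    simp
  | cons x l ih =>
    have hx : Ok x := hl x List.mem_cons_self
    have hl' : OkL l := fun z hz => hl z (List.mem_cons_of_mem _ hz)
    show conjHom (ux t x * wu t l) (t y) = t (act x (aw l y))
    rw [conjHom_mul, ih hl', conjHom_apply, h.ux_val hx, h.ux_inv hx, h.cj x _ hx (hl'.aw hy)]

omit h in
/-- `FF a b` is the idempotent `z + z⁻¹` for `z = t a * t b` -/
def FF (t : ℕ → Module.End F V) (a b : ℕ) : Module.End F V := t a * t b + t b * t a

omit h in
def NN (t : ℕ → Module.End F V) (a : ℕ) : Module.End F V := t a + 1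

theorem cjF {l : List ℕ} (hl : OkL l) {a b c d : ℕ} (ha : Ok a) (hb : Ok b) (e1 : aw l a = c) (e2 : aw l b = d) :
    conjHom (wu t l) (FF t a b) = FF t c d := by
  unfold FF
  rw [map_add, map_mul, map_mul, h.cjt hl ha e1, h.cjt hl hb e2]

theorem cjN {l : List ℕ} (hl : OkL l) {a c : ℕ} (ha : Ok a) (e1 : aw l a = c) :
    conjHom (wu t l) (NN t a) = NN t c := by
  unfold NN
  rw [map_add, map_one, h.cjt hl ha e1]

theorem comm_of {a b : ℕ} (ha : Ok a) (hb : Ok b) (e : act a b = b) : t a * t b = t b * t a := by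
  have h1 := h.cj a b ha hb
  rw [e] at h1
  calc t a * t b = t a * t b * (t a * t a) := by rw [h.sq a ha, mul_one]
    _ = (t a * t b * t a) * t a := by simp only [mul_assoc]
    _ = t b * t a := by rw [h1]

theorem NN_sq {a : ℕ} (ha : Ok a) : NN t a * NN t a = 0 := by
  unfold NN
  have h1 := h.sq a ha
  have : (t a + 1) * (t a + 1) = t a * t a + (t a + t a) + 1 := by noncomm_ring
  rw [this, h1, h.add_self, add_zero, h.add_self]

/-- `N_a N_b + N_b N_a = F_ab` -/
theorem NN_anti (a b : ℕ) : NN t a * NN t b + NN t b * NN t a = FF t a b := by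
  unfold NN FF
  have : (t a + 1) * (t b + 1) + (t b + 1) * (t a + 1) =
      t a * t b + t b * t a + ((t a + t a) + (t b + t b)) + (1 + 1) := by noncomm_ring
  rw [this, h.add_self (t a), h.add_self (t b), h.add_self 1, add_zero, add_zero, add_zero]

/-- for `f(a, b) = 1` the product `t a * t b` has order three -/
theorem braid {a b : ℕ} (ha : Ok a) (hb : Ok b) (e : sf a b = true) (e' : sf b a = true) :
    t a * t b * t a = t b * t a * t b := by
  rw [h.cj a b ha hb, h.cj b a hb ha]
  unfold act
  rw [if_pos e, if_pos e', Nat.xor_comm]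

theorem FF_idem {a b : ℕ} (ha : Ok a) (hb : Ok b) (e : sf a b = true) (e' : sf b a = true) :
    FF t a b * FF t a b = FF t a b := by
  have h1 := h.braid ha hb e e'
  have h2 := h.sq a ha
  have h3 := h.sq b hb
  unfold FF
  have e1 : (t a * t b + t b * t a) * (t a * t b + t b * t a) =
      (t a * t b * t a) * t b + t a * (t b * t b) * t a + (t b * (t a * t a) * t b + (t b * t a * t b) * t a) := by
    noncomm_ring
  rw [e1, h2, h3, h1, mul_one, mul_one, h2, h3]
  have e2 : t b * t a * t b * t b = t b * t a := by rw [mul_assoc, h3, mul_one]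
  rw [e2, ← h1]
  have e3 : t a * t b * t a * t a = t a * t b := by rw [mul_assoc, h2, mul_one]
  rw [e3]
  have : t b * t a + 1 + (1 + t a * t b) = t a * t b + t b * t a + (1 + 1) := by abel
  rw [this, h.add_self, add_zero]

omit h in
theorem FF_symm (a b : ℕ) : FF t a b = FF t b a := by
  unfold FF
  rw [add_comm]

theorem FF_comm {a b c d : ℕ} (h1 : t a * t c = t c * t a) (h2 : t a * t d = t d * t a) (h3 : t b * t c = t c * t b)
    (h4 : t b * t d = t d * t b) : FF t a b * FF t c d = FF t c d * FF t a b := by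
  have c1 : Commute (t a) (t c) := h1
  have c2 : Commute (t a) (t d) := h2
  have c3 : Commute (t b) (t c) := h3
  have c4 : Commute (t b) (t d) := h4
  have c5 : Commute (FF t a b) (FF t c d) := by
    unfold FF
    exact (((c1.mul_left c3).mul_right (c2.mul_left c4)).add_right
      ((c2.mul_left c4).mul_right (c1.mul_left c3))).add_left
      (((c3.mul_left c1).mul_right (c4.mul_left c2)).add_right ((c4.mul_left c2).mul_right (c3.mul_left c1)))
  exact c5

end Rep

/-- splitting by an idempotent -/
theorem split [FiniteDimensional F V] {X : Submodule F V} {g : Module.End F V} (h2 : ∀ v : V, v + v = 0)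
    (hg : g * g = g) (hX : ∀ v ∈ X, g v ∈ X) :
    Module.finrank F X = Module.finrank F (X ⊓ LinearMap.ker (g + 1) : Submodule F V) +
      Module.finrank F (X ⊓ LinearMap.ker g : Submodule F V) := by
  have hgg : ∀ v, g (g v) = g v := fun v => by
    rw [← Module.End.mul_apply, hg]
  have h1 : (X ⊓ LinearMap.ker (g + 1)) ⊔ (X ⊓ LinearMap.ker g) = X := by
    apply le_antisymm (sup_le inf_le_left inf_le_left)
    intro v hv
    rw [Submodule.mem_sup]
    refine ⟨g v, ⟨hX v hv, ?_⟩, v + g v, ⟨X.add_mem hv (hX v hv), ?_⟩, ?_⟩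
    · show g v ∈ LinearMap.ker (g + 1)
      rw [LinearMap.mem_ker, LinearMap.add_apply, Module.End.one_apply, hgg, h2]
    · show v + g v ∈ LinearMap.ker g
      rw [LinearMap.mem_ker, map_add, hgg, h2]
    · rw [add_comm v, ← add_assoc, h2, zero_add]
  have h3 : (X ⊓ LinearMap.ker (g + 1)) ⊓ (X ⊓ LinearMap.ker g) = ⊥ := by
    rw [Submodule.eq_bot_iff]
    rintro v ⟨⟨_, h4⟩, ⟨_, h5⟩⟩
    rw [SetLike.mem_coe, LinearMap.mem_ker] at h4 h5
    rw [LinearMap.add_apply, h5, zero_add, Module.End.one_apply] at h4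
    exact h4
  have h4 := Submodule.finrank_sup_add_finrank_inf_eq (X ⊓ LinearMap.ker (g + 1)) (X ⊓ LinearMap.ker g)
  rw [h1, h3, finrank_bot, add_zero] at h4
  exact h4

/-- halving by an annihilation and a creation operator -/
theorem step [FiniteDimensional F V] {X : Submodule F V} {a c : Module.End F V}
    (ha : a * a = 0) (hc : c * c = 0) (hXa : ∀ v ∈ X, a v ∈ X) (hXc : ∀ v ∈ X, c v ∈ X)
    (h1 : ∀ v ∈ X, a (c v) + c (a v) = v) :
    Module.finrank F X = 2 * Module.finrank F (X ⊓ LinearMap.ker a : Submodule F V) := by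
  have haa : ∀ v, a (a v) = 0 := fun v => by rw [← Module.End.mul_apply, ha, LinearMap.zero_apply]
  have hcc : ∀ v, c (c v) = 0 := fun v => by rw [← Module.End.mul_apply, hc, LinearMap.zero_apply]
  let f : X →ₗ[F] X := a.restrict hXa
  have hf : ∀ v : X, ((f v : X) : V) = a v := fun v => rfl
  have hker : Module.finrank F (LinearMap.ker f) = Module.finrank F (X ⊓ LinearMap.ker a : Submodule F V) := by
    have e : (LinearMap.ker f).map X.subtype = X ⊓ LinearMap.ker a := by
      ext v
      constructor
      · rintro ⟨w, hw, rfl⟩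
        refine ⟨w.2, ?_⟩
        have := Subtype.ext_iff.1 (LinearMap.mem_ker.1 hw)
        exact this
      · rintro ⟨h2, h3⟩
        exact ⟨⟨v, h2⟩, LinearMap.mem_ker.2 (Subtype.ext h3), rfl⟩
    rw [← e]
    exact (LinearEquiv.finrank_eq (Submodule.equivMapOfInjective X.subtype X.injective_subtype _))
  have hrange : LinearMap.range f = LinearMap.ker f := by
    ext v
    rw [LinearMap.mem_ker]
    constructor
    · rintro ⟨w, rfl⟩
      exact Subtype.ext (haa w)
    · intro hv
      have h2 : a v = 0 := Subtype.ext_iff.1 hv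
      refine ⟨⟨c v, hXc v v.2⟩, Subtype.ext ?_⟩
      have h3 := h1 v v.2
      rw [h2, map_zero, add_zero] at h3
      exact h3
  have h2 := LinearMap.finrank_range_add_finrank_ker f
  rw [hrange, hker] at h2
  omega

end Cfsg.Agent.H765.EPS
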