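import Cfsg.Agent.H765.EPS.Fock

/-!
# The modules of dimension 16 of `Sp₈(2)`: an element of order 17 (helper765)
-/

set_option autoImplicit false
set_option linter.unusedSectionVars false

namespace Cfsg.Agent.H765.EPS

variable {F V : Type*} [Field F] [AddCommGroup V] [Module F V]

/-- the action of `y₀` on the Fock space -/
def opx (m : ℕ) : ℕ → ℕ
  | 4 => m ^^^ ((m >>> 4) &&& 3855)
  | 16 => m ^^^ ((m &&& 21845) <<< 1)
  | 32 => m ^^^ ((m &&& 13107) <<< 2)
  | 64 => m ^^^ ((m &&& 3855) <<< 4)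
  | 128 => m ^^^ ((m &&& 255) <<< 8)
  | 5 => m ^^^ ((m >>> 1) &&& 21845) ^^^ ((m >>> 4) &&& 3855)
  | 40 => m ^^^ ((m >>> 8) &&& 255) ^^^ ((m &&& 13107) <<< 2)
  | 66 => m ^^^ ((m >>> 2) &&& 13107) ^^^ ((m &&& 3855) <<< 4)
  | _ => m

def YM (m : ℕ) : ℕ := opx (opx (opx (opx (opx (opx (opx (opx m 128) 64) 5) 16) 4) 32) 66) 40

def ypow : ℕ → ℕ → ℕ
  | 0, m => m
  | k + 1, m => YM (ypow k m)

/-- the quadratic residues modulo 17 -/
def qr : List ℕ := [1, 2, 4, 8, 9, 13, 15, 16]

namespace Rep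

variable {t : ℕ → Module.End F V} (h : Rep t)

include h

theorem add_of {c d m : ℕ} (hc : Ok c) (hd : Ok d) (e : act c d = m) (h1 : FF t c d = 1) : t m = t c + t d := by
  rw [← e, ← h.cj c d hc hd]
  unfold FF at h1
  have h2 : t c * t d = 1 + t d * t c := by
    have h3 := h.add_self (t d * t c)
    calc t c * t d = t c * t d + (t d * t c + t d * t c) := by rw [h3, add_zero]
      _ = (t c * t d + t d * t c) + t d * t c := by rw [add_assoc]
      _ = 1 + t d * t c := by rw [h1]
  rw [h2, add_mul, one_mul, mul_assoc, h.sq c hc, mul_one]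

/-- `t₁ + t₂ + t₃ = 1` -/
theorem D_one (hA : FF t 1 16 = 1) : t 1 + t 2 + t 3 = 1 := by
  have key : ∀ (l : List ℕ) (c d : ℕ), OkL l → aw l 1 = c → aw l 16 = d → FF t c d = 1 := by
    intro l c d hl e1 e2
    rw [← h.cjF hl (by decide) (by decide) e1 e2, hA, map_one]
  have f1 : t 17 = t 16 + t 1 := h.add_of (by decide) (by decide) (by decide)
    (key [17] _ _ (by decide) (by decide) (by decide))
  have f2 : t 19 = t 16 + t 3 := h.add_of (by decide) (by decide) (by decide)
    (key [17, 3, 1] _ _ (by decide) (by decide) (by decide))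
  have f3 : t 34 = t 32 + t 2 := h.add_of (by decide) (by decide) (by decide)
    (key [51, 33, 18] _ _ (by decide) (by decide) (by decide))
  have f4 : t 35 = t 32 + t 3 := h.add_of (by decide) (by decide) (by decide)
    (key [50, 19] _ _ (by decide) (by decide) (by decide))
  set D := t 1 + t 2 + t 3 with hD
  have c12 : t 1 * t 2 = t 2 * t 1 := h.cc
  have c13 : t 1 * t 3 = t 3 * t 1 := h.cc
  have c23 : t 2 * t 3 = t 3 * t 2 := h.cc
  have hDD : D * D = 1 := by
    have e1 : D * D = t 1 * t 1 + t 2 * t 2 + t 3 * t 3 + (t 1 * t 2 + t 2 * t 1) + (t 1 * t 3 + t 3 * t 1) +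
        (t 2 * t 3 + t 3 * t 2) := by rw [hD]; noncomm_ring
    rw [e1, h.sq 1 (by decide), h.sq 2 (by decide), h.sq 3 (by decide), c12, c13, c23, h.add_self (t 2 * t 1),
      h.add_self (t 3 * t 1), h.add_self (t 3 * t 2), add_zero, add_zero, add_zero, h.add_self 1, zero_add]
  have hcomm : ∀ g ∈ nine, t g * D = D * t g := by
    have k1 : ∀ g : ℕ, Ok g → t g * t 1 = t 1 * t g → t g * t 2 = t 2 * t g → t g * t 3 = t 3 * t g →
        t g * D = D * t g := by
      intro g _ h1 h2 h3
      rw [hD, mul_add, mul_add, h1, h2, h3, add_mul, add_mul]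
    have k2 : ∀ g : ℕ, Ok g → t g * D * t g = D → t g * D = D * t g := by
      intro g hg e
      calc t g * D = t g * D * (t g * t g) := by rw [h.sq g hg, mul_one]
        _ = (t g * D * t g) * t g := by simp only [mul_assoc]
        _ = D * t g := by rw [e]
    have k3 : ∀ g : ℕ, Ok g → t g * D * t g = t (act g 1) + t (act g 2) + t (act g 3) := by
      intro g hg
      rw [hD, mul_add, mul_add, add_mul, add_mul, h.cj g 1 hg (by decide), h.cj g 2 hg (by decide),
        h.cj g 3 hg (by decide)]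
    intro g hg
    unfold nine at hg
    simp only [List.mem_cons, List.not_mem_nil, or_false] at hg
    rcases hg with rfl | rfl | rfl | rfl | rfl | rfl | rfl | rfl | rfl
    · exact k1 1 (by decide) rfl h.cc h.cc
    · refine k2 16 (by decide) ?_
      rw [k3 16 (by decide)]
      show t 17 + t 2 + t 19 = D
      rw [f1, f2, hD]
      calc t 16 + t 1 + t 2 + (t 16 + t 3) = t 1 + t 2 + t 3 + (t 16 + t 16) := by abel
        _ = t 1 + t 2 + t 3 := by rw [h.add_self, add_zero]
    · exact k1 3 (by decide) h.cc h.cc rfl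
    · refine k2 32 (by decide) ?_
      rw [k3 32 (by decide)]
      show t 1 + t 34 + t 35 = D
      rw [f3, f4, hD]
      calc t 1 + (t 32 + t 2) + (t 32 + t 3) = t 1 + t 2 + t 3 + (t 32 + t 32) := by abel
        _ = t 1 + t 2 + t 3 := by rw [h.add_self, add_zero]
    · exact k1 6 (by decide) h.cc h.cc h.cc
    · exact k1 64 (by decide) h.cc h.cc h.cc
    · exact k1 12 (by decide) h.cc h.cc h.cc
    · exact k1 128 (by decide) h.cc h.cc h.cc
    · exact k1 2 (by decide) h.cc rfl h.cc
  have hU : ∀ x, Ok x → ∀ u ∈ LinearMap.ker (D + 1), t x u ∈ LinearMap.ker (D + 1) := by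
    intro x hx
    refine h.inv_of_nine (U := LinearMap.ker (D + 1)) ?_ hx
    intro g hg
    exact Inv.ker (by rw [mul_add, add_mul, hcomm g hg, mul_one, one_mul])
  have hz : (D + 1) * (D + 1) = 0 := by
    have e1 : (D + 1) * (D + 1) = D * D + (D + D) + 1 := by noncomm_ring
    rw [e1, hDD, h.add_self D, add_zero, h.add_self]
  have h1 : D + 1 = 0 := by
    rcases h.irr _ hU with h1 | h1
    · apply LinearMap.ext
      intro v
      have h2 : (D + 1) v ∈ LinearMap.ker (D + 1) := by
        rw [LinearMap.mem_ker, ← Module.End.mul_apply, hz, LinearMap.zero_apply]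
      rw [h1, Submodule.mem_bot] at h2
      exact h2
    · exact LinearMap.ker_eq_top.1 h1
  exact add_right_cancel (h1.trans (h.add_self 1).symm)

/-- the element `y₀` -/
def yy (t : ℕ → Module.End F V) : Module.End F V := t 40 * t 66 * t 32 * t 4 * t 16 * t 5 * t 64 * t 128

/-- the idempotent `θ(y₀)` -/
def ee (t : ℕ → Module.End F V) : Module.End F V :=
  yy t ^ 1 + yy t ^ 2 + yy t ^ 4 + yy t ^ 8 + yy t ^ 9 + yy t ^ 13 + yy t ^ 15 + yy t ^ 16

/-- **Both types of irreducible modules of `⟨y₀⟩` occur.** -/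
theorem main [FiniteDimensional F V] : (yy t + 1) * ee t ≠ 0 ∧ (yy t + 1) * (1 + ee t) ≠ 0 := by
  obtain ⟨hA, v, hv, n1, n2, n3, n4⟩ := h.caseA
  have key : ∀ (l : List ℕ) (c d : ℕ), OkL l → aw l 1 = c → aw l 16 = d → FF t c d = 1 := by
    intro l c d hl e1 e2
    rw [← h.cjF hl (by decide) (by decide) e1 e2, hA, map_one]
  have g2 : FF t 2 32 = 1 := key [51, 48, 3] _ _ (by decide) (by decide) (by decide)
  have g3 : FF t 4 64 = 1 := key [85, 80, 5] _ _ (by decide) (by decide) (by decide)
  have g4 : FF t 8 128 = 1 := key [153, 144, 9] _ _ (by decide) (by decide) (by decide)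
  have hD := h.D_one hA
  have keyD : ∀ (l : List ℕ) (a b c : ℕ), OkL l → aw l 1 = a → aw l 2 = b → aw l 3 = c → t a + t b + t c = 1 := by
    intro l a b c hl e1 e2 e3
    have h1 := congrArg (conjHom (wu t l)) hD
    rw [map_add, map_add, map_one, h.cjt hl (by decide) e1, h.cjt hl (by decide) e2, h.cjt hl (by decide) e3] at h1
    exact h1
  have d1 : t 1 + t 4 + t 5 = 1 := keyD [102, 96] _ _ _ (by decide) (by decide) (by decide) (by decide)
  have d2 : t 8 + t 32 + t 40 = 1 := keyD [153, 144, 34] _ _ _ (by decide) (by decide) (by decide) (by decide)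
  have d3 : t 2 + t 64 + t 66 = 1 := keyD [85, 54, 33, 20] _ _ _ (by decide) (by decide) (by decide) (by decide)
  -- the Fock relations
  have sq0 : ∀ a, Ok a → ∀ x : V, NN t a (NN t a x) = 0 := fun a ha x => by
    rw [← Module.End.mul_apply, h.NN_sq ha, LinearMap.zero_apply]
  have an : ∀ a b, FF t a b = 1 → ∀ x : V, NN t a (NN t b x) = x + NN t b (NN t a x) := by
    intro a b e x
    have h1 := h.NN_anti a b
    rw [e] at h1
    have h2 := congrArg (fun f : Module.End F V => f x) h1
    have h3 : NN t a (NN t b x) + NN t b (NN t a x) = x := h2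
    have h4 := h.add_selfV (NN t b (NN t a x))
    calc NN t a (NN t b x) = NN t a (NN t b x) + (NN t b (NN t a x) + NN t b (NN t a x)) := by rw [h4, add_zero]
      _ = (NN t a (NN t b x) + NN t b (NN t a x)) + NN t b (NN t a x) := by rw [add_assoc]
      _ = x + NN t b (NN t a x) := by rw [h3]
  have co : ∀ a b, t a * t b = t b * t a → ∀ x : V, NN t a (NN t b x) = NN t b (NN t a x) := by
    intro a b e x
    have h1 : NN t a * NN t b = NN t b * NN t a := by
      have c1 : Commute (t a) (t b) := e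
      exact (c1.add_right (Commute.one_right _)).add_left (Commute.one_left _)
    exact congrArg (fun f : Module.End F V => f x) h1
  have k : Fock (NN t 1) (NN t 2) (NN t 4) (NN t 8) (NN t 16) (NN t 32) (NN t 64) (NN t 128) v :=
    { q0 := sq0 16 (by decide), q1 := sq0 32 (by decide), q2 := sq0 64 (by decide), q3 := sq0 128 (by decide)
      p10 := co _ _ h.cc, p20 := co _ _ h.cc, p30 := co _ _ h.cc, p21 := co _ _ h.cc, p31 := co _ _ h.cc,
      p32 := co _ _ h.cc
      d00 := an _ _ hA, d01 := co _ _ h.cc, d02 := co _ _ h.cc, d03 := co _ _ h.cc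
      d10 := co _ _ h.cc, d11 := an _ _ g2, d12 := co _ _ h.cc, d13 := co _ _ h.cc
      d20 := co _ _ h.cc, d21 := co _ _ h.cc, d22 := an _ _ g3, d23 := co _ _ h.cc
      d30 := co _ _ h.cc, d31 := co _ _ h.cc, d32 := co _ _ h.cc, d33 := an _ _ g4
      v0 := n1, v1 := n2, v2 := n3, v3 := n4 }
  obtain ⟨C, hC⟩ : ∃ C : ℕ → V, C = CS (NN t 16) (NN t 32) (NN t 64) (NN t 128) v := ⟨_, rfl⟩
  have A0 := phi_a0 k.A0
  have A1 := phi_a1 k.A1
  have A2 := phi_a2 k.A2
  have A3 := phi_a3 k.A3
  have C0 := phi_c0 k.C0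
  have C1 := phi_c1 k.C1
  have C2 := phi_c2 k.C2
  have C3 := phi_c3 k.C3
  rw [← hC] at A0 A1 A2 A3 C0 C1 C2 C3
  have hx := phi_xor h.add_selfV C
  have tN : ∀ (a : ℕ) (x : V), t a x = x + NN t a x := by
    intro a x
    show t a x = x + (t a + 1) x
    rw [LinearMap.add_apply, Module.End.one_apply, add_comm (t a x), ← add_assoc, h.add_selfV, zero_add]
  have tD : ∀ (a b c : ℕ), t a + t b + t c = 1 → ∀ x : V, t c x = x + NN t a x + NN t b x := by
    intro a b c e x
    have h1 : t a x + t b x + t c x = x := congrArg (fun f : Module.End F V => f x) e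
    rw [tN a, tN b] at h1
    have h2 := h.add_selfV
    have h3 : t c x = (x + NN t a x + (x + NN t b x) + t c x) + (x + NN t a x + (x + NN t b x)) := by
      rw [add_comm, ← add_assoc, h2, zero_add]
    rw [h1] at h3
    rw [h3]
    calc x + (x + NN t a x + (x + NN t b x)) = (x + x) + (x + NN t a x + NN t b x) := by abel
      _ = x + NN t a x + NN t b x := by rw [h2, zero_add]
  have o4 : ∀ m, t 4 (phi C m) = phi C (opx m 4) := fun m => by rw [tN, A2, ← hx]; rfl
  have o16 : ∀ m, t 16 (phi C m) = phi C (opx m 16) := fun m => by rw [tN, C0, ← hx]; rfl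
  have o32 : ∀ m, t 32 (phi C m) = phi C (opx m 32) := fun m => by rw [tN, C1, ← hx]; rfl
  have o64 : ∀ m, t 64 (phi C m) = phi C (opx m 64) := fun m => by rw [tN, C2, ← hx]; rfl
  have o128 : ∀ m, t 128 (phi C m) = phi C (opx m 128) := fun m => by rw [tN, C3, ← hx]; rfl
  have o5 : ∀ m, t 5 (phi C m) = phi C (opx m 5) := fun m => by rw [tD _ _ _ d1, A0, A2, ← hx, ← hx]; rfl
  have o40 : ∀ m, t 40 (phi C m) = phi C (opx m 40) := fun m => by rw [tD _ _ _ d2, A3, C1, ← hx, ← hx]; rfl
  have o66 : ∀ m, t 66 (phi C m) = phi C (opx m 66) := fun m => by rw [tD _ _ _ d3, A1, C2, ← hx, ← hx]; rfl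
  have hy : ∀ m, yy t (phi C m) = phi C (YM m) := by
    intro m
    show t 40 (t 66 (t 32 (t 4 (t 16 (t 5 (t 64 (t 128 (phi C m)))))))) = _
    rw [o128, o64, o5, o16, o4, o32, o66, o40]
    rfl
  have hyp : ∀ n m, (yy t ^ n) (phi C m) = phi C (ypow n m) := by
    intro n
    induction n with
    | zero => intro m; rfl
    | succ n ih =>
      intro m
      rw [pow_succ', Module.End.mul_apply, ih, hy]
      rfl
  have hee : ee t (phi C 1) = phi C 1397 := by
    unfold ee
    simp only [LinearMap.add_apply, hyp]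
    rw [← hx, ← hx, ← hx, ← hx, ← hx, ← hx, ← hx]
    congr 1
  have hv' : phi C 1 = v := by
    rw [hC]
    unfold phi
    simp [Finset.sum_range_succ, Nat.testBit, CS]
  constructor
  · intro e
    have h1 : ((yy t + 1) * ee t) (phi C 1) = 0 := by rw [e, LinearMap.zero_apply]
    rw [Module.End.mul_apply, hee, LinearMap.add_apply, hy, Module.End.one_apply, ← hx] at h1
    have h2 : YM 1397 ^^^ 1397 = 35194 := by decide +kernel
    rw [h2] at h1
    have h3 := congrArg (fun x => NN t 8 (NN t 4 (NN t 2 (NN t 1 x)))) h1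
    simp only [A0, A1, A2, A3, map_zero] at h3
    have h4 : (((((((35194 >>> 1 &&& 21845) >>> 2) &&& 13107) >>> 4) &&& 3855) >>> 8) &&& 255) = 1 := by decide +kernel
    rw [h4, hv'] at h3
    exact hv h3
  · intro e
    have h1 : ((yy t + 1) * (1 + ee t)) (phi C 1) = 0 := by rw [e, LinearMap.zero_apply]
    rw [Module.End.mul_apply, LinearMap.add_apply 1, Module.End.one_apply, hee, ← hx, LinearMap.add_apply, hy,
      Module.End.one_apply, ← hx] at h1
    have h2 : YM (1 ^^^ 1397) ^^^ (1 ^^^ 1397) = 30139 := by decide +kernel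
    rw [h2] at h1
    have h3 := congrArg (fun x => NN t 8 (NN t 4 (NN t 2 x))) h1
    simp only [A1, A2, A3, map_zero] at h3
    have h4 : (((((30139 >>> 2 &&& 13107) >>> 4) &&& 3855) >>> 8) &&& 255) = 1 := by decide +kernel
    rw [h4, hv'] at h3
    exact hv h3

end Rep

end Cfsg.Agent.H765.EPS
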