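import Mathlib
import Cfsg.Prelude.Def_GeometricClasses

/-!
# The element `y θ(y) + 1 + θ(y)` (helper765)
-/

set_option autoImplicit false
set_option linter.unusedSectionVars false

namespace Cfsg.Agent.H765.EPS

open scoped Matrix

section Ring

variable {R : Type*} [Ring R]

/-- the sum of the powers with quadratic residues as exponents -/
def th (y : R) : R := y ^ 1 + y ^ 2 + y ^ 4 + y ^ 8 + y ^ 9 + y ^ 13 + y ^ 15 + y ^ 16

def cc (y : R) : R := y * th y + (1 + th y)

theorem sq_add_comm (h2 : ∀ r : R, r + r = 0) {a b : R} (h : Commute a b) : (a + b) * (a + b) = a * a + b * b := by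
  have e : (a + b) * (a + b) = a * a + b * b + (a * b + b * a) := by noncomm_ring
  rw [e, h.eq, h2, add_zero]

theorem th_idem (h2 : ∀ r : R, r + r = 0) {y : R} (hy : y ^ 17 = 1) : th y * th y = th y := by
  have c : ∀ a b : ℕ, Commute (y ^ a) (y ^ b) := fun a b => (Commute.refl y).pow_pow a b
  have e18 : y ^ 18 = y := by rw [pow_succ, hy, one_mul]
  have e26 : y ^ 26 = y ^ 9 := by rw [show 26 = 17 + 9 from rfl, pow_add, hy, one_mul]
  have e30 : y ^ 30 = y ^ 13 := by rw [show 30 = 17 + 13 from rfl, pow_add, hy, one_mul]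
  have e32 : y ^ 32 = y ^ 15 := by rw [show 32 = 17 + 15 from rfl, pow_add, hy, one_mul]
  unfold th
  rw [sq_add_comm h2 (((((((c _ _).add_left (c _ _)).add_left (c _ _)).add_left (c _ _)).add_left (c _ _)).add_left
    (c _ _)).add_left (c _ _)),
    sq_add_comm h2 ((((((c _ _).add_left (c _ _)).add_left (c _ _)).add_left (c _ _)).add_left (c _ _)).add_left (c _ _)),
    sq_add_comm h2 (((((c _ _).add_left (c _ _)).add_left (c _ _)).add_left (c _ _)).add_left (c _ _)),
    sq_add_comm h2 ((((c _ _).add_left (c _ _)).add_left (c _ _)).add_left (c _ _)),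
    sq_add_comm h2 (((c _ _).add_left (c _ _)).add_left (c _ _)),
    sq_add_comm h2 ((c _ _).add_left (c _ _)),
    sq_add_comm h2 (c _ _)]
  simp only [← pow_add]
  norm_num only
  rw [e18, e26, e30, e32, pow_one]
  abel

theorem comm_th {y g : R} (h : Commute g y) : Commute g (th y) := by
  unfold th
  exact (((((((h.pow_right _).add_right (h.pow_right _)).add_right (h.pow_right _)).add_right (h.pow_right _)).add_right
    (h.pow_right _)).add_right (h.pow_right _)).add_right (h.pow_right _)).add_right (h.pow_right _)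

theorem map_th {S : Type*} [Ring S] (f : R →+* S) (y : R) : f (th y) = th (f y) := by
  unfold th
  simp only [map_add, map_pow]

theorem map_cc {S : Type*} [Ring S] (f : R →+* S) (y : R) : f (cc y) = cc (f y) := by
  unfold cc
  rw [map_add, map_add, map_mul, map_th, map_one]

theorem th_mul_one_add (h2 : ∀ r : R, r + r = 0) {y : R} (hy : y ^ 17 = 1) : th y * (1 + th y) = 0 := by
  rw [mul_add, mul_one, th_idem h2 hy, h2]

theorem one_add_mul_th (h2 : ∀ r : R, r + r = 0) {y : R} (hy : y ^ 17 = 1) : (1 + th y) * th y = 0 := by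
  rw [add_mul, one_mul, th_idem h2 hy, h2]

theorem one_add_sq (h2 : ∀ r : R, r + r = 0) {y : R} (hy : y ^ 17 = 1) : (1 + th y) * (1 + th y) = 1 + th y := by
  rw [add_mul, one_mul, th_mul_one_add h2 hy, add_zero]

theorem cc_pow (h2 : ∀ r : R, r + r = 0) {y : R} (hy : y ^ 17 = 1) (n : ℕ) :
    cc y ^ n = y ^ n * th y + (1 + th y) := by
  induction n with
  | zero =>
    rw [pow_zero, pow_zero, one_mul]
    calc (1 : R) = 1 + (th y + th y) := by rw [h2, add_zero]
      _ = th y + (1 + th y) := by abel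
  | succ n ih =>
    rw [pow_succ, ih, cc]
    have c1 : th y * y = y * th y := (comm_th (Commute.refl y)).eq.symm
    have c2 : (1 + th y) * y = y * (1 + th y) := by rw [add_mul, mul_add, one_mul, mul_one, c1]
    calc (y ^ n * th y + (1 + th y)) * (y * th y + (1 + th y)) =
        y ^ n * (th y * y) * th y + y ^ n * (th y * (1 + th y)) + ((1 + th y) * y) * th y +
          (1 + th y) * (1 + th y) := by noncomm_ring
      _ = y ^ n * (y * th y) * th y + y ^ n * (th y * (1 + th y)) + (y * (1 + th y)) * th y +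
          (1 + th y) * (1 + th y) := by rw [c1, c2]
      _ = y ^ n * y * (th y * th y) + y ^ n * (th y * (1 + th y)) + y * ((1 + th y) * th y) +
          (1 + th y) * (1 + th y) := by simp only [mul_assoc]
      _ = y ^ (n + 1) * th y + (1 + th y) := by
        rw [th_idem h2 hy, th_mul_one_add h2 hy, one_add_mul_th h2 hy, one_add_sq h2 hy, mul_zero, mul_zero, add_zero,
          add_zero, pow_succ]

theorem cc_pow17 (h2 : ∀ r : R, r + r = 0) {y : R} (hy : y ^ 17 = 1) : cc y ^ 17 = 1 := by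
  rw [cc_pow h2 hy, hy, one_mul]
  calc th y + (1 + th y) = 1 + (th y + th y) := by abel
    _ = 1 := by rw [h2, add_zero]

/-- an element inverting `y` inverts `cc y` -/
theorem cc_inv (h2 : ∀ r : R, r + r = 0) {y g : R} (hy : y ^ 17 = 1) (hg : g * y = y ^ 16 * g) :
    g * cc y = cc y ^ 16 * g := by
  have h1 : ∀ n : ℕ, g * y ^ n = y ^ (16 * n) * g := by
    intro n
    induction n with
    | zero => simp
    | succ n ih => rw [pow_succ, ← mul_assoc, ih, mul_assoc, hg, ← mul_assoc, ← pow_add, Nat.mul_succ]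
  have hm : ∀ n k r : ℕ, n = 17 * k + r → y ^ n = y ^ r := by
    intro n k r e
    rw [e, pow_add, pow_mul, hy, one_pow, one_mul]
  have h3 : g * th y = th y * g := by
    unfold th
    rw [mul_add, mul_add, mul_add, mul_add, mul_add, mul_add, mul_add, h1, h1, h1, h1, h1, h1, h1, h1,
      hm (16 * 1) 0 16 rfl, hm (16 * 2) 1 15 rfl, hm (16 * 4) 3 13 rfl, hm (16 * 8) 7 9 rfl, hm (16 * 9) 8 8 rfl,
      hm (16 * 13) 12 4 rfl, hm (16 * 15) 14 2 rfl, hm (16 * 16) 15 1 rfl]
    simp only [add_mul]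
    abel
  rw [cc_pow h2 hy, cc, mul_add, mul_add, mul_one, h3, ← mul_assoc, hg, mul_assoc, h3, ← mul_assoc, add_mul (y ^ 16 * th y),
    add_mul 1, one_mul]

/-- `cc y` is not a power of `y` -/
theorem cc_ne (h2 : ∀ r : R, r + r = 0) {y : R} (hy : y ^ 17 = 1) (h3 : (y + 1) * th y ≠ 0)
    (h4 : (y + 1) * (1 + th y) ≠ 0) (j : ℕ) : cc y ≠ y ^ j := by
  intro e
  have c1 : th y * y = y * th y := (comm_th (Commute.refl y)).eq.symm
  by_cases hj : j % 17 = 0
  · have h5 : y ^ j = 1 := by
      obtain ⟨k, hk⟩ := Nat.dvd_of_mod_eq_zero hj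
      rw [hk, pow_mul, hy, one_pow]
    rw [h5] at e
    apply h3
    have h6 : cc y * th y = th y := by rw [e, one_mul]
    rw [cc, add_mul, one_add_mul_th h2 hy, add_zero, mul_assoc, th_idem h2 hy] at h6
    rw [add_mul, one_mul, h6, h2]
  · obtain ⟨k, hk⟩ : ∃ k : ℕ, j * k % 17 = 1 := by
      have key : ∀ r < 17, r ≠ 0 → ∃ k, k < 17 ∧ r * k % 17 = 1 := by decide
      obtain ⟨k, _, hk⟩ := key (j % 17) (Nat.mod_lt _ (by norm_num)) hj
      refine ⟨k, ?_⟩
      rw [Nat.mul_mod, Nat.mod_mod] at hk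
      rw [Nat.mul_mod]
      exact hk
    have h6 : y ^ j * (1 + th y) = 1 + th y := by
      rw [← e, cc, add_mul, one_add_sq h2 hy, mul_assoc, th_mul_one_add h2 hy, mul_zero, zero_add]
    have h7 : ∀ k : ℕ, y ^ (j * k) * (1 + th y) = 1 + th y := by
      intro k
      induction k with
      | zero => simp
      | succ k ih => rw [Nat.mul_succ, pow_add, mul_assoc, h6, ih]
    have h8 : y ^ (j * k) = y := by
      have h9 := Nat.div_add_mod (j * k) 17
      rw [hk] at h9
      rw [← h9, pow_add, pow_mul, hy, one_pow, one_mul, pow_one]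
    apply h4
    have h9 := h7 k
    rw [h8] at h9
    rw [add_mul, one_mul, h9, h2]

end Ring

section Quad

variable {ι : Type} [Fintype ι] [DecidableEq ι] {F : Type*} [Field F]

theorem quad_fix (h2 : (2 : F) = 0) {Qf : (ι → F) → F} (hb : Cfsg.Geo.IsBilinearForm (QuadraticMap.polar Qf))
    {y : Matrix ι ι F} (hy : y ^ 17 = 1) (hQ : ∀ v, Qf (y *ᵥ v) = Qf v) (v : ι → F) : Qf (cc y *ᵥ v) = Qf v := by
  have hR : ∀ r : Matrix ι ι F, r + r = 0 := fun r => by rw [← two_smul F r, h2, zero_smul]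
  obtain ⟨B, hB⟩ : ∃ B, B = QuadraticMap.polar Qf := ⟨_, rfl⟩
  rw [← hB] at hb
  have hBQ : ∀ v w, Qf (v + w) = Qf v + Qf w + B v w := by
    intro v w
    rw [hB, QuadraticMap.polar]
    ring
  have hBy : ∀ v w, B (y *ᵥ v) (y *ᵥ w) = B v w := by
    intro v w
    rw [hB, QuadraticMap.polar, QuadraticMap.polar, ← Matrix.mulVec_add, hQ, hQ, hQ]
  have hByk : ∀ (k : ℕ) v w, B (y ^ k *ᵥ v) (y ^ k *ᵥ w) = B v w := by
    intro k
    induction k with
    | zero => intro v w; simp
    | succ k ih =>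
      intro v w
      rw [pow_succ, ← Matrix.mulVec_mulVec, ← Matrix.mulVec_mulVec, ih, hBy]
  have hadj : ∀ (r s : ℕ), r + s = 17 → ∀ v w, B (y ^ r *ᵥ v) w = B v (y ^ s *ᵥ w) := by
    intro r s hrs v w
    rw [← hByk s, Matrix.mulVec_mulVec, ← pow_add, add_comm s r, hrs, hy, Matrix.one_mulVec]
  have h0 : ∀ v, B v 0 = 0 := by
    intro v
    have := hBQ v 0
    have h3 : Qf 0 = 0 := by
      have h4 := hBQ 0 0
      have h5 : B 0 0 = 0 := by
        have := hb.add_left 0 0 0
        rw [add_zero] at this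
        exact (left_eq_add.1 this)
      rw [add_zero, h5, add_zero] at h4
      exact (left_eq_add.1 h4)
    rw [add_zero, h3, add_zero] at this
    exact (left_eq_add.1 this)
  have hth : ∀ v w, B (th y *ᵥ v) w = B v (th y *ᵥ w) := by
    intro v w
    unfold th
    simp only [Matrix.add_mulVec, hb.add_left, hb.add_right]
    rw [hadj 1 16 rfl, hadj 2 15 rfl, hadj 4 13 rfl, hadj 8 9 rfl, hadj 9 8 rfl, hadj 13 4 rfl, hadj 15 2 rfl,
      hadj 16 1 rfl]
    ring
  have hperp : ∀ v w, B (th y *ᵥ v) ((1 + th y) *ᵥ w) = 0 := by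
    intro v w
    rw [hth, Matrix.mulVec_mulVec, th_mul_one_add hR hy, Matrix.zero_mulVec, h0]
  have h1 : cc y *ᵥ v = th y *ᵥ (y *ᵥ v) + (1 + th y) *ᵥ v := by
    rw [cc, Matrix.add_mulVec, ← Matrix.mulVec_mulVec, Matrix.mulVec_mulVec, (comm_th (Commute.refl y)).eq,
      ← Matrix.mulVec_mulVec]
  have h3 : v = th y *ᵥ v + (1 + th y) *ᵥ v := by
    rw [← Matrix.add_mulVec]
    have : th y + (1 + th y) = 1 := by
      calc th y + (1 + th y) = 1 + (th y + th y) := by abel
        _ = 1 := by rw [hR, add_zero]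
    rw [this, Matrix.one_mulVec]
  have h4 : th y *ᵥ (y *ᵥ v) = y *ᵥ (th y *ᵥ v) := by
    rw [Matrix.mulVec_mulVec, Matrix.mulVec_mulVec, (comm_th (Commute.refl y)).eq]
  rw [h1, hBQ, hperp, h4, hQ]
  conv_rhs => rw [h3, hBQ, hperp]

end Quad

end Cfsg.Agent.H765.EPS
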