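import Cfsg.Agent.H765.EPS.Abs
import Cfsg.Agent.H765.EPS.CaseA
import Cfsg.Agent.H765.EPS.Cyc
import Cfsg.Agent.H419.EP.Big
import Cfsg.Agent.S0814

/-!
# S3499, own characteristic: `Sp₈(2)` in dimension 16 (helper765)
-/

set_option autoImplicit false
set_option linter.unusedSectionVars false

namespace Cfsg.Agent.H765.EPS

open Subgroup Cfsg.Agent.H284 Cfsg.Agent.H419.EP
open scoped MatrixGroups Matrix commutatorElement

variable {K : Type} [Field K] [Fintype K]

/-- an element inverting `Y0` -/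
def U0 (K : Type*) [Field K] : Matrix.symplecticGroup (Fin 4) K := (([40, 68, 69, 32] : List ℕ).map (TT K)).prod

theorem U0_inv (hK : Fintype.card K = 2) : U0 K * Y0 K * (U0 K)⁻¹ = Y0 K ^ 16 := by
  rw [mul_inv_eq_iff_eq_mul]
  apply ext_bas hK
  intro i hi
  have h1 : ∀ n : ℕ, mt (U0 K * Y0 K) *ᵥ vec K n = vec K (aw [40, 68, 69, 32] (aw y0w n)) := by
    intro n
    rw [mt, Cfsg.Agent.ClassicalGeometry.SympBasic.coe_mul_mulVec, Y0_vec hK]
    exact prod_vec (two_of_card hK) _ _
  have h2 : ∀ n : ℕ, mt (Y0 K ^ 16 * U0 K) *ᵥ vec K n = vec K (ypw 16 (aw [40, 68, 69, 32] n)) := by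
    intro n
    rw [mt, Cfsg.Agent.ClassicalGeometry.SympBasic.coe_mul_mulVec, ← Y0_pow_vec hK]
    congr 1
    exact prod_vec (two_of_card hK) _ _
  have h3 : ∀ i < 8, aw [40, 68, 69, 32] (aw y0w (2 ^ i)) = ypw 16 (aw [40, 68, 69, 32] (2 ^ i)) := by decide +kernel
  exact (h1 _).trans ((congrArg (vec K) (h3 i hi)).trans (h2 _).symm)

/-- the centre of `Sp₈(2)` is trivial -/
theorem center_bot (hK : Fintype.card K = 2) : Subgroup.center (Matrix.symplecticGroup (Fin 4) K) = ⊥ := by
  rw [Subgroup.eq_bot_iff_forall]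
  intro z hz
  rw [Subgroup.mem_center_iff] at hz
  have h2 := two_of_card hK
  have h1 : mt z *ᵥ vec K 1 = vec K 1 := by
    -- `z` commutes with the transvection `1`
    obtain ⟨v, hv, hzv⟩ := vec_surj hK (mt z *ᵥ vec K 16)
    obtain ⟨w, hw, hzw⟩ := vec_surj hK (mt z *ᵥ vec K 1)
    have e1 : mt (z * TT K 1) *ᵥ vec K 16 = mt (TT K 1 * z) *ᵥ vec K 16 := by rw [hz]
    rw [mt, mt, Cfsg.Agent.ClassicalGeometry.SympBasic.coe_mul_mulVec,
      Cfsg.Agent.ClassicalGeometry.SympBasic.coe_mul_mulVec, TT_vec h2] at e1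
    have e2 : vec K (act 1 16) = vec K 1 + vec K 16 := by
      rw [← vec_xor h2]
      rfl
    rw [e2, Matrix.mulVec_add] at e1
    have e3 : vec K w + vec K v = vec K (act 1 v) := by
      rw [← TT_vec h2, hzw, hzv]
      exact e1
    rw [← vec_xor h2] at e3
    have e4 : w ^^^ v = act 1 v := by
      have h3 : ∀ v < 256, act 1 v < 256 := by decide +kernel
      exact vec_inj (Nat.xor_lt_two_pow (n := 8) hw hv) (h3 v hv) e3
    have hw0 : w ≠ 0 := by
      rintro rfl
      rw [vec_zero] at hzw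
      have h3 : mt (z⁻¹ * z) *ᵥ vec K 1 = 0 := by
        rw [mt, Cfsg.Agent.ClassicalGeometry.SympBasic.coe_mul_mulVec, ← hzw]
        exact Matrix.mulVec_zero _
      rw [inv_mul_cancel] at h3
      have h4 : vec K 1 = 0 := (Matrix.one_mulVec _).symm.trans h3
      rw [← vec_zero] at h4
      have := vec_inj (K := K) (m := 1) (n := 0) (by norm_num) (by norm_num) h4
      omega
    have e5 : w = 1 := by
      have h5 : (w ^^^ v) ^^^ v = w := by rw [Nat.xor_assoc, Nat.xor_self, Nat.xor_zero]
      rw [← h5, e4]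
      unfold act at e4 ⊢
      split_ifs at e4 ⊢ with h6
      · rw [Nat.xor_comm v 1, Nat.xor_assoc, Nat.xor_self, Nat.xor_zero]
      · exfalso
        apply hw0
        rw [← h5, e4, Nat.xor_self]
    rw [← hzw, e5]
  exact Y0_fixS hK (R := {z}) (by
    intro r hr
    rw [Set.mem_singleton_iff] at hr ⊢
    rw [hr, mul_assoc, ← hz (Y0 K), inv_mul_cancel_left]) ⟨vec K 1, (by
    intro r hr
    rw [Set.mem_singleton_iff] at hr
    rw [hr]
    exact h1), (by
    intro e
    rw [← vec_zero] at e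
    have := vec_inj (K := K) (m := 1) (n := 0) (by norm_num) (by norm_num) e
    omega)⟩ z rfl

section Rep

variable {ι : Type} [Fintype ι] [DecidableEq ι] {F : Type} [Field F] [Fintype F]

/-- the representation -/
noncomputable def rho (θ : Matrix.symplecticGroup (Fin 4) K →* GL ι F) :
    Matrix.symplecticGroup (Fin 4) K →* Module.End F (ι → F) :=
  ((Matrix.toLinAlgEquiv' : Matrix ι ι F ≃ₐ[F] _).toAlgHom.toRingHom.toMonoidHom.comp
    (Units.coeHom (Matrix ι ι F))).comp θ

theorem rho_apply (θ : Matrix.symplecticGroup (Fin 4) K →* GL ι F) (g : Matrix.symplecticGroup (Fin 4) K) (v : ι → F) :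
    rho θ g v = (θ g : Matrix ι ι F) *ᵥ v := rfl

theorem rho_inj {θ : Matrix.symplecticGroup (Fin 4) K →* GL ι F} (hθ : Function.Injective θ) :
    Function.Injective (rho θ) := by
  intro a b e
  apply hθ
  apply Units.ext
  exact (Matrix.toLinAlgEquiv' : Matrix ι ι F ≃ₐ[F] _).injective e

/-- the relations in the representation -/
theorem rep_of (hK : Fintype.card K = 2) (hF : Fintype.card F = 2) (hn : Fintype.card ι = 16)
    {θ : Matrix.symplecticGroup (Fin 4) K →* GL ι F} (hθ : Function.Injective θ)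
    (hirr : Cfsg.Geo.ActsIrreducibly (Cfsg.Geo.matrixSet θ.range)) : Rep (fun x => rho θ (TT K x)) := by
  have h2 := two_of_card hK
  refine ⟨?_, ?_, ?_, ?_, ?_, ?_, two_of_card hF⟩
  · intro x _
    show rho θ (TT K x) * rho θ (TT K x) = 1
    rw [← map_mul, TT_sq h2, map_one]
  · intro x y _ _
    show rho θ (TT K x) * rho θ (TT K y) * rho θ (TT K x) = rho θ (TT K (act x y))
    rw [← map_mul, ← map_mul, TT_cj h2]
  · have h1 := congrArg (rho θ) (TT_seven hK)
    simp only [map_mul, map_one] at h1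
    exact h1
  · intro U hU
    have key : ∀ g : Matrix.symplecticGroup (Fin 4) K, (∀ v ∈ U, rho θ g v ∈ U) ∧ (∀ v ∈ U, rho θ g⁻¹ v ∈ U) := by
      intro g
      have hg : g ∈ Subgroup.closure {g : Matrix.symplecticGroup (Fin 4) K | ∃ n, Ok n ∧ g = TT K n} := by
        rw [TT_gen hK]
        exact mem_top _
      induction hg using Subgroup.closure_induction with
      | mem x hx =>
        obtain ⟨n, hn, rfl⟩ := hx
        refine ⟨hU n hn, ?_⟩
        rw [TT_inv h2]
        exact hU n hn
      | one =>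
        rw [inv_one, map_one]
        exact ⟨fun v hv => hv, fun v hv => hv⟩
      | mul x y _ _ hx hy =>
        constructor
        · intro v hv
          rw [map_mul]
          exact hx.1 _ (hy.1 v hv)
        · intro v hv
          rw [mul_inv_rev, map_mul]
          exact hy.2 _ (hx.2 v hv)
      | inv x _ hx =>
        refine ⟨hx.2, ?_⟩
        rw [inv_inv]
        exact hx.1
    apply hirr U
    rintro _ ⟨_, ⟨g, rfl⟩, rfl⟩
    rintro _ ⟨v, hv, rfl⟩
    exact (key g).1 v hv
  · intro e
    have h1 : TT K 1 = 1 := rho_inj hθ (e.trans (map_one _).symm)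
    have h3 := TT_vec h2 1 16
    rw [h1] at h3
    have h4 : vec K 16 = vec K (act 1 16) := (Matrix.one_mulVec _).symm.trans h3
    have := vec_inj (K := K) (m := 16) (n := act 1 16) (by norm_num) (by decide) h4
    revert this
    decide
  · rw [Module.finrank_fintype_fun_eq_card, hn]

end Rep

end Cfsg.Agent.H765.EPS
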