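import Cfsg.Agent.H765.EPS.Dich

/-!
# The modules of dimension 16 of `Sp₈(2)`: the case of small weights (helper765)
-/

set_option autoImplicit false
set_option linter.unusedSectionVars false

namespace Cfsg.Agent.H765.EPS

variable {F V : Type*} [Field F] [AddCommGroup V] [Module F V]

/-- the nine generators -/
def nine : List ℕ := [1, 16, 3, 32, 6, 64, 12, 128, 2]

/-- words moving `(2, 1)` -/
def wds : List (List ℕ) := [[], [17], [18, 16], [33, 32], [33, 32, 18, 16], [33, 32, 22, 16], [34], [34, 17], [34,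
  18, 16], [34, 22, 16], [35, 18, 16], [35, 34, 17], [36, 32], [36, 32, 17], [39, 22, 16], [48, 32, 17], [49, 18, 16],
  [51, 33, 17], [51, 33, 18], [51, 33, 19], [51, 33, 21], [51, 48], [51, 48, 18], [51, 48, 18, 16], [51, 48, 20, 16],
  [52, 48, 18, 16], [85, 20], [85, 34, 20], [85, 54, 33, 20], [85, 61, 32, 20], [87, 80], [87, 80, 41, 32], [93, 80],
  [93, 80, 34], [95, 61, 32, 20], [97, 96, 28, 16], [99, 52, 48], [99, 55, 48], [102, 36], [102, 36, 17], [110, 96],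
  [110, 96, 17], [115, 82, 47], [115, 97, 31], [115, 112, 30, 16], [115, 112, 36, 32], [115, 112, 45, 32], [116, 37,
  36, 16], [116, 82, 37, 16], [117, 55, 22], [118, 52, 18, 16], [118, 55, 37], [125, 112, 36, 32], [126, 112, 18, 16],
  [153, 24], [153, 34, 24], [153, 36, 32, 24], [153, 58, 33, 24], [157, 62, 33, 24], [170, 40], [170, 40, 17], [170,
  85, 40, 20], [184, 41, 40, 16], [184, 146, 41, 16], [185, 59, 26], [186, 56, 18, 16], [186, 59, 41], [215, 110, 96,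
  20], [215, 121, 96, 20], [215, 188, 41, 20]]

/-- certificates for the generation -/
def certs : List (List ℕ) := [[1], [2], [3], [64, 6, 32, 2, 3, 32, 6, 16, 3, 32, 2, 64, 6, 32, 3, 16, 1], [16, 3,
  32, 2, 6, 32, 3, 16, 1], [6], [32, 2, 6, 32, 3], [128, 12, 64, 6, 32, 2, 3, 32, 6, 16, 3, 32, 2, 64, 12, 6, 64, 32,
  6, 3, 32, 2, 128, 12, 64, 6, 32, 3, 16], [16, 3, 32, 2, 6, 64, 32, 6, 3, 32, 2, 12, 64, 6, 32, 3, 16], [32, 6, 64,
  3, 32, 6, 16, 3, 32, 2, 12, 64, 6, 32, 3, 16, 1], [32, 2, 6, 64, 32, 6, 16, 3, 32, 2, 12, 64, 6, 32, 3, 16, 1],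
  [12], [64, 6, 32, 2, 12, 64, 6, 32, 3], [32, 2, 64, 3, 32, 6, 16, 3, 32, 2, 12, 64, 6, 32, 3, 16, 1], [64, 6, 16, 3,
  32, 2, 12, 64, 6, 32, 3, 16, 1], [16], [16, 1], [3, 16, 1], [3, 16], [3, 32, 2, 6, 32, 3, 16], [3, 32, 2, 6, 32, 3,
  16, 1], [32, 2, 6, 32, 3, 16, 1], [32, 2, 6, 32, 3, 16], [3, 32, 2, 6, 64, 32, 6, 3, 32, 2, 12, 64, 6, 32, 3, 16,
  1], [3, 32, 2, 6, 64, 32, 6, 3, 32, 2, 12, 64, 6, 32, 3, 16], [32, 2, 6, 64, 32, 6, 3, 32, 2, 12, 64, 6, 32, 3, 16],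
  [32, 2, 6, 64, 32, 6, 3, 32, 2, 12, 64, 6, 32, 3, 16, 1], [64, 6, 32, 2, 12, 64, 6, 32, 3, 16, 1], [64, 6, 32, 2,
  12, 64, 6, 32, 3, 16], [64, 6, 3, 32, 2, 12, 64, 6, 32, 3, 16], [64, 6, 3, 32, 2, 12, 64, 6, 32, 3, 16, 1], [32],
  [2, 32, 3], [2, 32], [32, 3], [2, 6, 32], [6, 32, 3], [6, 32], [2, 6, 32, 3], [2, 6, 64, 3, 32, 6, 16, 3, 32, 2, 12,
  64, 6, 32, 3, 16, 1], [6, 64, 32, 6, 16, 3, 32, 2, 12, 64, 6, 32, 3, 16, 1], [6, 64, 3, 32, 6, 16, 3, 32, 2, 12, 64,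
  6, 32, 3, 16, 1], [2, 6, 64, 32, 6, 16, 3, 32, 2, 12, 64, 6, 32, 3, 16, 1], [64, 3, 32, 6, 16, 3, 32, 2, 12, 64, 6,
  32, 3, 16, 1], [2, 64, 32, 6, 16, 3, 32, 2, 12, 64, 6, 32, 3, 16, 1], [2, 64, 3, 32, 6, 16, 3, 32, 2, 12, 64, 6, 32,
  3, 16, 1], [64, 32, 6, 16, 3, 32, 2, 12, 64, 6, 32, 3, 16, 1], [2, 32, 3, 16, 1], [2, 32, 3, 16], [32, 3, 16, 1],
  [32, 3, 16], [6, 32, 3, 16, 1], [6, 32, 3, 16], [2, 6, 32, 3, 16, 1], [2, 6, 32, 3, 16], [6, 64, 32, 6, 3, 32, 2,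
  12, 64, 6, 32, 3, 16], [6, 64, 32, 6, 3, 32, 2, 12, 64, 6, 32, 3, 16, 1], [2, 6, 64, 32, 6, 3, 32, 2, 12, 64, 6, 32,
  3, 16], [2, 6, 64, 32, 6, 3, 32, 2, 12, 64, 6, 32, 3, 16, 1], [2, 64, 32, 6, 3, 32, 2, 12, 64, 6, 32, 3, 16], [2,
  64, 32, 6, 3, 32, 2, 12, 64, 6, 32, 3, 16, 1], [64, 32, 6, 3, 32, 2, 12, 64, 6, 32, 3, 16], [64, 32, 6, 3, 32, 2,
  12, 64, 6, 32, 3, 16, 1], [64], [6, 32, 2, 64, 6, 32, 3], [32, 2, 3, 32, 6, 16, 3, 32, 2, 64, 6, 32, 3, 16, 1], [6,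
  16, 3, 32, 2, 64, 6, 32, 3, 16, 1], [6, 32, 2, 3, 32, 6, 16, 3, 32, 2, 64, 6, 32, 3, 16, 1], [16, 3, 32, 2, 64, 6,
  32, 3, 16, 1], [64, 6], [32, 2, 64, 6, 32, 3], [6, 32, 2, 3, 32, 6, 16, 3, 32, 2, 12, 64, 6, 32, 3, 16, 1], [16, 3,
  32, 2, 12, 64, 6, 32, 3, 16, 1], [12, 64, 6], [32, 2, 12, 64, 6, 32, 3], [12, 64], [6, 32, 2, 12, 64, 6, 32, 3],
  [32, 2, 3, 32, 6, 16, 3, 32, 2, 12, 64, 6, 32, 3, 16, 1], [6, 16, 3, 32, 2, 12, 64, 6, 32, 3, 16, 1], [6, 32, 2, 64,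
  6, 32, 3, 16, 1], [6, 32, 2, 64, 6, 32, 3, 16], [6, 3, 32, 2, 64, 6, 32, 3, 16], [6, 3, 32, 2, 64, 6, 32, 3, 16, 1],
  [3, 32, 2, 64, 6, 32, 3, 16], [3, 32, 2, 64, 6, 32, 3, 16, 1], [32, 2, 64, 6, 32, 3, 16, 1], [32, 2, 64, 6, 32, 3,
  16], [3, 32, 2, 12, 64, 6, 32, 3, 16], [3, 32, 2, 12, 64, 6, 32, 3, 16, 1], [32, 2, 12, 64, 6, 32, 3, 16, 1], [32,
  2, 12, 64, 6, 32, 3, 16], [6, 32, 2, 12, 64, 6, 32, 3, 16, 1], [6, 32, 2, 12, 64, 6, 32, 3, 16], [6, 3, 32, 2, 12,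
  64, 6, 32, 3, 16], [6, 3, 32, 2, 12, 64, 6, 32, 3, 16, 1], [3, 32, 6, 16, 3, 32, 2, 64, 6, 32, 3, 16, 1], [2, 32, 6,
  16, 3, 32, 2, 64, 6, 32, 3, 16, 1], [2, 3, 32, 6, 16, 3, 32, 2, 64, 6, 32, 3, 16, 1], [32, 6, 16, 3, 32, 2, 64, 6,
  32, 3, 16, 1], [2, 64, 6, 32], [64, 6, 32, 3], [64, 6, 32], [2, 64, 6, 32, 3], [2, 12, 64, 6, 32], [12, 64, 6, 32,
  3], [12, 64, 6, 32], [2, 12, 64, 6, 32, 3], [3, 32, 6, 16, 3, 32, 2, 12, 64, 6, 32, 3, 16, 1], [2, 32, 6, 16, 3, 32,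
  2, 12, 64, 6, 32, 3, 16, 1], [2, 3, 32, 6, 16, 3, 32, 2, 12, 64, 6, 32, 3, 16, 1], [32, 6, 16, 3, 32, 2, 12, 64, 6,
  32, 3, 16, 1], [2, 32, 6, 3, 32, 2, 64, 6, 32, 3, 16], [2, 32, 6, 3, 32, 2, 64, 6, 32, 3, 16, 1], [32, 6, 3, 32, 2,
  64, 6, 32, 3, 16], [32, 6, 3, 32, 2, 64, 6, 32, 3, 16, 1], [64, 6, 32, 3, 16, 1], [64, 6, 32, 3, 16], [2, 64, 6, 32,
  3, 16, 1], [2, 64, 6, 32, 3, 16], [12, 64, 6, 32, 3, 16, 1], [12, 64, 6, 32, 3, 16], [2, 12, 64, 6, 32, 3, 16, 1],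
  [2, 12, 64, 6, 32, 3, 16], [2, 32, 6, 3, 32, 2, 12, 64, 6, 32, 3, 16], [2, 32, 6, 3, 32, 2, 12, 64, 6, 32, 3, 16,
  1], [32, 6, 3, 32, 2, 12, 64, 6, 32, 3, 16], [32, 6, 3, 32, 2, 12, 64, 6, 32, 3, 16, 1], [128], [12, 64, 6, 32, 2,
  128, 12, 64, 6, 32, 3], [32, 2, 12, 64, 3, 32, 6, 16, 3, 32, 2, 128, 12, 64, 6, 32, 3, 16, 1], [12, 64, 6, 16, 3,
  32, 2, 128, 12, 64, 6, 32, 3, 16, 1], [64, 6, 32, 2, 3, 32, 6, 16, 3, 32, 2, 64, 12, 6, 64, 32, 6, 3, 32, 2, 128,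
  12, 64, 6, 32, 3, 16], [16, 3, 32, 2, 12, 6, 64, 32, 6, 3, 32, 2, 128, 12, 64, 6, 32, 3, 16], [12, 32, 6, 64, 3, 32,
  6, 16, 3, 32, 2, 128, 12, 64, 6, 32, 3, 16, 1], [32, 2, 12, 6, 64, 32, 6, 16, 3, 32, 2, 128, 12, 64, 6, 32, 3, 16,
  1], [12, 64, 6, 32, 2, 3, 32, 6, 16, 3, 32, 2, 64, 12, 6, 64, 32, 6, 3, 32, 2, 128, 12, 64, 6, 32, 3, 16], [16, 3,
  32, 2, 6, 64, 32, 6, 3, 32, 2, 128, 12, 64, 6, 32, 3, 16], [32, 6, 64, 3, 32, 6, 16, 3, 32, 2, 128, 12, 64, 6, 32,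
  3, 16, 1], [32, 2, 6, 64, 32, 6, 16, 3, 32, 2, 128, 12, 64, 6, 32, 3, 16, 1], [128, 12], [64, 6, 32, 2, 128, 12, 64,
  6, 32, 3], [32, 2, 64, 3, 32, 6, 16, 3, 32, 2, 128, 12, 64, 6, 32, 3, 16, 1], [64, 6, 16, 3, 32, 2, 128, 12, 64, 6,
  32, 3, 16, 1], [12, 64, 6, 32, 2, 128, 12, 64, 6, 32, 3, 16, 1], [12, 64, 6, 32, 2, 128, 12, 64, 6, 32, 3, 16], [12,
  64, 6, 3, 32, 2, 128, 12, 64, 6, 32, 3, 16], [12, 64, 6, 3, 32, 2, 128, 12, 64, 6, 32, 3, 16, 1], [3, 32, 2, 12, 6,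
  64, 32, 6, 3, 32, 2, 128, 12, 64, 6, 32, 3, 16, 1], [3, 32, 2, 12, 6, 64, 32, 6, 3, 32, 2, 128, 12, 64, 6, 32, 3,
  16], [32, 2, 12, 6, 64, 32, 6, 3, 32, 2, 128, 12, 64, 6, 32, 3, 16], [32, 2, 12, 6, 64, 32, 6, 3, 32, 2, 128, 12,
  64, 6, 32, 3, 16, 1], [3, 32, 2, 6, 64, 32, 6, 3, 32, 2, 128, 12, 64, 6, 32, 3, 16, 1], [3, 32, 2, 6, 64, 32, 6, 3,
  32, 2, 128, 12, 64, 6, 32, 3, 16], [32, 2, 6, 64, 32, 6, 3, 32, 2, 128, 12, 64, 6, 32, 3, 16], [32, 2, 6, 64, 32, 6,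
  3, 32, 2, 128, 12, 64, 6, 32, 3, 16, 1], [64, 6, 32, 2, 128, 12, 64, 6, 32, 3, 16, 1], [64, 6, 32, 2, 128, 12, 64,
  6, 32, 3, 16], [64, 6, 3, 32, 2, 128, 12, 64, 6, 32, 3, 16], [64, 6, 3, 32, 2, 128, 12, 64, 6, 32, 3, 16, 1], [12,
  64, 3, 32, 6, 16, 3, 32, 2, 128, 12, 64, 6, 32, 3, 16, 1], [2, 12, 64, 32, 6, 16, 3, 32, 2, 128, 12, 64, 6, 32, 3,
  16, 1], [2, 12, 64, 3, 32, 6, 16, 3, 32, 2, 128, 12, 64, 6, 32, 3, 16, 1], [12, 64, 32, 6, 16, 3, 32, 2, 128, 12,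
  64, 6, 32, 3, 16, 1], [2, 12, 6, 64, 3, 32, 6, 16, 3, 32, 2, 128, 12, 64, 6, 32, 3, 16, 1], [12, 6, 64, 32, 6, 16,
  3, 32, 2, 128, 12, 64, 6, 32, 3, 16, 1], [12, 6, 64, 3, 32, 6, 16, 3, 32, 2, 128, 12, 64, 6, 32, 3, 16, 1], [2, 12,
  6, 64, 32, 6, 16, 3, 32, 2, 128, 12, 64, 6, 32, 3, 16, 1], [2, 6, 64, 3, 32, 6, 16, 3, 32, 2, 128, 12, 64, 6, 32, 3,
  16, 1], [6, 64, 32, 6, 16, 3, 32, 2, 128, 12, 64, 6, 32, 3, 16, 1], [6, 64, 3, 32, 6, 16, 3, 32, 2, 128, 12, 64, 6,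
  32, 3, 16, 1], [2, 6, 64, 32, 6, 16, 3, 32, 2, 128, 12, 64, 6, 32, 3, 16, 1], [64, 3, 32, 6, 16, 3, 32, 2, 128, 12,
  64, 6, 32, 3, 16, 1], [2, 64, 32, 6, 16, 3, 32, 2, 128, 12, 64, 6, 32, 3, 16, 1], [2, 64, 3, 32, 6, 16, 3, 32, 2,
  128, 12, 64, 6, 32, 3, 16, 1], [64, 32, 6, 16, 3, 32, 2, 128, 12, 64, 6, 32, 3, 16, 1], [2, 12, 64, 32, 6, 3, 32, 2,
  128, 12, 64, 6, 32, 3, 16], [2, 12, 64, 32, 6, 3, 32, 2, 128, 12, 64, 6, 32, 3, 16, 1], [12, 64, 32, 6, 3, 32, 2,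
  128, 12, 64, 6, 32, 3, 16], [12, 64, 32, 6, 3, 32, 2, 128, 12, 64, 6, 32, 3, 16, 1], [12, 6, 64, 32, 6, 3, 32, 2,
  128, 12, 64, 6, 32, 3, 16], [12, 6, 64, 32, 6, 3, 32, 2, 128, 12, 64, 6, 32, 3, 16, 1], [2, 12, 6, 64, 32, 6, 3, 32,
  2, 128, 12, 64, 6, 32, 3, 16], [2, 12, 6, 64, 32, 6, 3, 32, 2, 128, 12, 64, 6, 32, 3, 16, 1], [6, 64, 32, 6, 3, 32,
  2, 128, 12, 64, 6, 32, 3, 16], [6, 64, 32, 6, 3, 32, 2, 128, 12, 64, 6, 32, 3, 16, 1], [2, 6, 64, 32, 6, 3, 32, 2,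
  128, 12, 64, 6, 32, 3, 16], [2, 6, 64, 32, 6, 3, 32, 2, 128, 12, 64, 6, 32, 3, 16, 1], [2, 64, 32, 6, 3, 32, 2, 128,
  12, 64, 6, 32, 3, 16], [2, 64, 32, 6, 3, 32, 2, 128, 12, 64, 6, 32, 3, 16, 1], [64, 32, 6, 3, 32, 2, 128, 12, 64, 6,
  32, 3, 16], [64, 32, 6, 3, 32, 2, 128, 12, 64, 6, 32, 3, 16, 1], [6, 64, 12, 32, 6, 64, 3, 32, 6, 16, 3, 32, 2, 128,
  12, 64, 6, 32, 3, 16, 1], [6, 32, 2, 64, 12, 6, 64, 32, 6, 16, 3, 32, 2, 128, 12, 64, 6, 32, 3, 16, 1], [32, 2, 3,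
  32, 6, 16, 3, 32, 2, 64, 12, 6, 64, 32, 6, 3, 32, 2, 128, 12, 64, 6, 32, 3, 16], [6, 16, 3, 32, 2, 64, 12, 6, 64,
  32, 6, 3, 32, 2, 128, 12, 64, 6, 32, 3, 16], [6, 32, 2, 3, 32, 6, 16, 3, 32, 2, 64, 12, 6, 64, 32, 6, 3, 32, 2, 128,
  12, 64, 6, 32, 3, 16], [16, 3, 32, 2, 64, 12, 6, 64, 32, 6, 3, 32, 2, 128, 12, 64, 6, 32, 3, 16], [64, 12, 32, 6,
  64, 3, 32, 6, 16, 3, 32, 2, 128, 12, 64, 6, 32, 3, 16, 1], [32, 2, 64, 12, 6, 64, 32, 6, 16, 3, 32, 2, 128, 12, 64,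
  6, 32, 3, 16, 1], [6, 32, 2, 3, 32, 6, 16, 3, 32, 2, 128, 12, 64, 6, 32, 3, 16, 1], [16, 3, 32, 2, 128, 12, 64, 6,
  32, 3, 16, 1], [128, 12, 64, 6], [32, 2, 128, 12, 64, 6, 32, 3], [128, 12, 64], [6, 32, 2, 128, 12, 64, 6, 32, 3],
  [32, 2, 3, 32, 6, 16, 3, 32, 2, 128, 12, 64, 6, 32, 3, 16, 1], [6, 16, 3, 32, 2, 128, 12, 64, 6, 32, 3, 16, 1], [6,
  32, 2, 64, 12, 6, 64, 32, 6, 3, 32, 2, 128, 12, 64, 6, 32, 3, 16], [6, 32, 2, 64, 12, 6, 64, 32, 6, 3, 32, 2, 128,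
  12, 64, 6, 32, 3, 16, 1], [6, 3, 32, 2, 64, 12, 6, 64, 32, 6, 3, 32, 2, 128, 12, 64, 6, 32, 3, 16, 1], [6, 3, 32, 2,
  64, 12, 6, 64, 32, 6, 3, 32, 2, 128, 12, 64, 6, 32, 3, 16], [3, 32, 2, 64, 12, 6, 64, 32, 6, 3, 32, 2, 128, 12, 64,
  6, 32, 3, 16, 1], [3, 32, 2, 64, 12, 6, 64, 32, 6, 3, 32, 2, 128, 12, 64, 6, 32, 3, 16], [32, 2, 64, 12, 6, 64, 32,
  6, 3, 32, 2, 128, 12, 64, 6, 32, 3, 16], [32, 2, 64, 12, 6, 64, 32, 6, 3, 32, 2, 128, 12, 64, 6, 32, 3, 16, 1], [3,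
  32, 2, 128, 12, 64, 6, 32, 3, 16], [3, 32, 2, 128, 12, 64, 6, 32, 3, 16, 1], [32, 2, 128, 12, 64, 6, 32, 3, 16, 1],
  [32, 2, 128, 12, 64, 6, 32, 3, 16], [6, 32, 2, 128, 12, 64, 6, 32, 3, 16, 1], [6, 32, 2, 128, 12, 64, 6, 32, 3, 16],
  [6, 3, 32, 2, 128, 12, 64, 6, 32, 3, 16], [6, 3, 32, 2, 128, 12, 64, 6, 32, 3, 16, 1], [3, 32, 6, 16, 3, 32, 2, 64,
  12, 6, 64, 32, 6, 3, 32, 2, 128, 12, 64, 6, 32, 3, 16], [2, 32, 6, 16, 3, 32, 2, 64, 12, 6, 64, 32, 6, 3, 32, 2,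
  128, 12, 64, 6, 32, 3, 16], [2, 3, 32, 6, 16, 3, 32, 2, 64, 12, 6, 64, 32, 6, 3, 32, 2, 128, 12, 64, 6, 32, 3, 16],
  [32, 6, 16, 3, 32, 2, 64, 12, 6, 64, 32, 6, 3, 32, 2, 128, 12, 64, 6, 32, 3, 16], [2, 64, 12, 6, 64, 3, 32, 6, 16,
  3, 32, 2, 128, 12, 64, 6, 32, 3, 16, 1], [64, 12, 6, 64, 32, 6, 16, 3, 32, 2, 128, 12, 64, 6, 32, 3, 16, 1], [64,
  12, 6, 64, 3, 32, 6, 16, 3, 32, 2, 128, 12, 64, 6, 32, 3, 16, 1], [2, 64, 12, 6, 64, 32, 6, 16, 3, 32, 2, 128, 12,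
  64, 6, 32, 3, 16, 1], [2, 128, 12, 64, 6, 32], [128, 12, 64, 6, 32, 3], [128, 12, 64, 6, 32], [2, 128, 12, 64, 6,
  32, 3], [3, 32, 6, 16, 3, 32, 2, 128, 12, 64, 6, 32, 3, 16, 1], [2, 32, 6, 16, 3, 32, 2, 128, 12, 64, 6, 32, 3, 16,
  1], [2, 3, 32, 6, 16, 3, 32, 2, 128, 12, 64, 6, 32, 3, 16, 1], [32, 6, 16, 3, 32, 2, 128, 12, 64, 6, 32, 3, 16, 1],
  [2, 32, 6, 3, 32, 2, 64, 12, 6, 64, 32, 6, 3, 32, 2, 128, 12, 64, 6, 32, 3, 16, 1], [2, 32, 6, 3, 32, 2, 64, 12, 6,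
  64, 32, 6, 3, 32, 2, 128, 12, 64, 6, 32, 3, 16], [32, 6, 3, 32, 2, 64, 12, 6, 64, 32, 6, 3, 32, 2, 128, 12, 64, 6,
  32, 3, 16, 1], [32, 6, 3, 32, 2, 64, 12, 6, 64, 32, 6, 3, 32, 2, 128, 12, 64, 6, 32, 3, 16], [64, 12, 6, 64, 32, 6,
  3, 32, 2, 128, 12, 64, 6, 32, 3, 16], [64, 12, 6, 64, 32, 6, 3, 32, 2, 128, 12, 64, 6, 32, 3, 16, 1], [2, 64, 12, 6,
  64, 32, 6, 3, 32, 2, 128, 12, 64, 6, 32, 3, 16], [2, 64, 12, 6, 64, 32, 6, 3, 32, 2, 128, 12, 64, 6, 32, 3, 16, 1],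
  [128, 12, 64, 6, 32, 3, 16, 1], [128, 12, 64, 6, 32, 3, 16], [2, 128, 12, 64, 6, 32, 3, 16, 1], [2, 128, 12, 64, 6,
  32, 3, 16], [2, 32, 6, 3, 32, 2, 128, 12, 64, 6, 32, 3, 16], [2, 32, 6, 3, 32, 2, 128, 12, 64, 6, 32, 3, 16, 1],
  [32, 6, 3, 32, 2, 128, 12, 64, 6, 32, 3, 16], [32, 6, 3, 32, 2, 128, 12, 64, 6, 32, 3, 16, 1]]

/-- evaluation of a certificate -/
def ev : List ℕ → ℕ
  | [] => 0
  | [x] => x
  | x :: l => act x (ev l)

theorem certs_ev : certs.map ev = (List.range 255).map (fun k => k + 1) := by decide +kernel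

theorem certs_ok : ∀ l ∈ certs, l ≠ [] ∧ ∀ x ∈ l, x ∈ nine := by decide +kernel

theorem exists_cert {x : ℕ} (hx : Ok x) : ∃ l : List ℕ, (l ≠ [] ∧ ∀ y ∈ l, y ∈ nine) ∧ ev l = x := by
  have h1 : x ∈ (List.range 255).map (fun k => k + 1) := by
    rw [List.mem_map]
    refine ⟨x - 1, ?_, ?_⟩
    · rw [List.mem_range]
      have := hx.2
      omega
    · have := hx.1
      omega
  rw [← certs_ev, List.mem_map] at h1
  obtain ⟨l, hl, e⟩ := h1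
  exact ⟨l, certs_ok l hl, e⟩

theorem nine_ok : ∀ x ∈ nine, Ok x := by decide

theorem ev_ok : ∀ l : List ℕ, l ≠ [] → (∀ y ∈ l, y ∈ nine) → Ok (ev l)
  | [], h, _ => absurd rfl h
  | [x], _, h => nine_ok x (h x (by simp))
  | x :: y :: l, _, h => (nine_ok x (h x (by simp))).act
      (ev_ok (y :: l) (by simp) fun z hz => h z (List.mem_cons_of_mem _ hz))

theorem star_cert : ∀ a ∈ nine, ∀ b ∈ nine, a ≠ b → sf a b = false →
    ∃ w ∈ wds, OkL w ∧ aw w 2 = a ∧ aw w 1 = b := by decide +kernel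

namespace Rep

variable {t : ℕ → Module.End F V} (h : Rep t)

include h

/-- invariance under the nine generators suffices -/
theorem inv_of_nine {U : Submodule F V} (hU : ∀ x ∈ nine, Inv U (t x)) {x : ℕ} (hx : Ok x) : Inv U (t x) := by
  obtain ⟨l, ⟨h1, h2⟩, rfl⟩ := exists_cert hx
  clear hx
  induction l with
  | nil => exact absurd rfl h1
  | cons a l ih =>
    cases l with
    | nil => exact hU a (h2 a (by simp))
    | cons b l =>
      have ha := h2 a (by simp)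
      have h3 : ∀ y ∈ b :: l, y ∈ nine := fun z hz => h2 z (List.mem_cons_of_mem _ hz)
      have h4 := ih (by simp) h3
      show Inv U (t (act a (ev (b :: l))))
      rw [← h.cj _ _ (nine_ok a ha) (ev_ok _ (by simp) h3)]
      exact ((hU a ha).mul h4).mul (hU a ha)

theorem eq_of_FF {c d : ℕ} (hc : Ok c) (hd : Ok d) (e : sf c d = true) (e' : sf d c = true) {X : Module.End F V}
    (hX : FF t c d * X = 0) : t c * X = t d * X := by
  have h1 : t c * t d * (1 + FF t c d) = 1 + FF t c d := by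
    unfold FF
    have h2 := h.sq c hc
    have h3 := h.sq d hd
    have h4 := h.braid hc hd e e'
    have e1 : t c * t d * (1 + (t c * t d + t d * t c)) =
        t c * t d + (t c * t d * t c) * t d + t c * (t d * t d) * t c := by noncomm_ring
    have e2 : t d * t c * t d * t d = t d * t c := by rw [mul_assoc, h3, mul_one]
    rw [e1, h4, h3, mul_one, h2, e2]
    abel
  have h2 : (1 + FF t c d) * X = X := by rw [add_mul, hX, one_mul, add_zero]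
  have h3 : t c * (t d * X) = X := by
    conv_lhs => rw [← h2]
    rw [← mul_assoc, ← mul_assoc, h1, h2]
  calc t c * X = t c * (t c * (t d * X)) := by rw [h3]
    _ = t d * X := by rw [← mul_assoc, h.sq c hc, one_mul]

/-- the seven transvections of a totally isotropic 3-space -/
theorem seven_kill {X : Module.End F V} (h1 : FF t 1 208 * X = 0) (h2 : FF t 4 208 * X = 0) (h3 : FF t 8 208 * X = 0)
    (h4 : FF t 13 208 * X = 0) (h5 : FF t 1 16 * X = 0) (h6 : FF t 5 16 * X = 0) (h7 : FF t 9 16 * X = 0)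
    (h8 : FF t 12 64 * X = 0) (h9 : FF t 4 64 * X = 0) : t 1 * X = X := by
  have k1 := h.eq_of_FF (by decide) (by decide) (by decide) (by decide) h1
  have k2 := h.eq_of_FF (by decide) (by decide) (by decide) (by decide) h2
  have k3 := h.eq_of_FF (by decide) (by decide) (by decide) (by decide) h3
  have k4 := h.eq_of_FF (by decide) (by decide) (by decide) (by decide) h4
  have k5 := h.eq_of_FF (by decide) (by decide) (by decide) (by decide) h5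
  have k6 := h.eq_of_FF (by decide) (by decide) (by decide) (by decide) h6
  have k7 := h.eq_of_FF (by decide) (by decide) (by decide) (by decide) h7
  have k8 := h.eq_of_FF (by decide) (by decide) (by decide) (by decide) h8
  have k9 := h.eq_of_FF (by decide) (by decide) (by decide) (by decide) h9
  -- all seven are equal to `t 1 * X`
  have q4 : t 4 * X = t 1 * X := k2.trans k1.symm
  have q8 : t 8 * X = t 1 * X := k3.trans k1.symm
  have q13 : t 13 * X = t 1 * X := k4.trans k1.symm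
  have q5 : t 5 * X = t 1 * X := k6.trans k5.symm
  have q9 : t 9 * X = t 1 * X := k7.trans k5.symm
  have q12 : t 12 * X = t 1 * X := (k8.trans k9.symm).trans q4
  have hs : t 1 * (t 4 * (t 8 * (t 5 * (t 9 * (t 12 * (t 13 * X)))))) = X := by
    have := h.seven
    calc t 1 * (t 4 * (t 8 * (t 5 * (t 9 * (t 12 * (t 13 * X)))))) =
        (t 1 * t 4 * t 8 * t 5 * t 9 * t 12 * t 13) * X := by simp only [mul_assoc]
      _ = X := by rw [this, one_mul]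
  have p : ∀ a : ℕ, Ok a → t a * X = t 1 * X → t a * (t 1 * X) = X := by
    intro a ha e
    rw [← e, ← mul_assoc, h.sq a ha, one_mul]
  rw [q13, p 12 (by decide) q12, q9, p 5 (by decide) q5, q8, p 4 (by decide) q4] at hs
  exact hs

theorem seven' : t 2 * t 4 * t 8 * t 6 * t 10 * t 12 * t 14 = 1 := by
  have h1 := congrArg (conjHom (wu t [3, 48, 51])) h.seven
  simp only [map_mul, map_one] at h1
  rw [h.cjt (l := [3, 48, 51]) (y := 1) (z := 2) (by decide) (by decide) (by decide),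
    h.cjt (l := [3, 48, 51]) (y := 4) (z := 4) (by decide) (by decide) (by decide),
    h.cjt (l := [3, 48, 51]) (y := 8) (z := 8) (by decide) (by decide) (by decide),
    h.cjt (l := [3, 48, 51]) (y := 5) (z := 6) (by decide) (by decide) (by decide),
    h.cjt (l := [3, 48, 51]) (y := 9) (z := 10) (by decide) (by decide) (by decide),
    h.cjt (l := [3, 48, 51]) (y := 12) (z := 12) (by decide) (by decide) (by decide),
    h.cjt (l := [3, 48, 51]) (y := 13) (z := 14) (by decide) (by decide) (by decide)] at h1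
  exact h1

theorem seven_kill' {X : Module.End F V} (h1 : FF t 2 224 * X = 0) (h2 : FF t 4 224 * X = 0) (h3 : FF t 8 224 * X = 0)
    (h4 : FF t 14 224 * X = 0) (h5 : FF t 2 32 * X = 0) (h6 : FF t 6 32 * X = 0) (h7 : FF t 10 32 * X = 0)
    (h8 : FF t 12 64 * X = 0) (h9 : FF t 4 64 * X = 0) : t 2 * X = X := by
  have k1 := h.eq_of_FF (by decide) (by decide) (by decide) (by decide) h1
  have k2 := h.eq_of_FF (by decide) (by decide) (by decide) (by decide) h2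
  have k3 := h.eq_of_FF (by decide) (by decide) (by decide) (by decide) h3
  have k4 := h.eq_of_FF (by decide) (by decide) (by decide) (by decide) h4
  have k5 := h.eq_of_FF (by decide) (by decide) (by decide) (by decide) h5
  have k6 := h.eq_of_FF (by decide) (by decide) (by decide) (by decide) h6
  have k7 := h.eq_of_FF (by decide) (by decide) (by decide) (by decide) h7
  have k8 := h.eq_of_FF (by decide) (by decide) (by decide) (by decide) h8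
  have k9 := h.eq_of_FF (by decide) (by decide) (by decide) (by decide) h9
  have q4 : t 4 * X = t 2 * X := k2.trans k1.symm
  have q8 : t 8 * X = t 2 * X := k3.trans k1.symm
  have q13 : t 14 * X = t 2 * X := k4.trans k1.symm
  have q5 : t 6 * X = t 2 * X := k6.trans k5.symm
  have q9 : t 10 * X = t 2 * X := k7.trans k5.symm
  have q12 : t 12 * X = t 2 * X := (k8.trans k9.symm).trans q4
  have hs : t 2 * (t 4 * (t 8 * (t 6 * (t 10 * (t 12 * (t 14 * X)))))) = X := by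
    have := h.seven'
    calc t 2 * (t 4 * (t 8 * (t 6 * (t 10 * (t 12 * (t 14 * X)))))) =
        (t 2 * t 4 * t 8 * t 6 * t 10 * t 12 * t 14) * X := by simp only [mul_assoc]
      _ = X := by rw [this, one_mul]
  have p : ∀ a : ℕ, Ok a → t a * X = t 2 * X → t a * (t 2 * X) = X := by
    intro a ha e
    rw [← e, ← mul_assoc, h.sq a ha, one_mul]
  rw [q13, p 12 (by decide) q12, q9, p 6 (by decide) q5, q8, p 4 (by decide) q4] at hs
  exact hs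

/-- `F₁ ≠ 0` -/
theorem FF_ne : FF t 1 16 ≠ 0 := by
  intro h0
  have key : ∀ (l : List ℕ) (c d : ℕ), OkL l → aw l 1 = c → aw l 16 = d → FF t c d * 1 = 0 := by
    intro l c d hl e1 e2
    rw [mul_one, ← h.cjF hl (by decide) (by decide) e1 e2, h0, map_zero]
  have h1 := h.seven_kill (X := 1) (key [193, 1] _ _ (by decide) (by decide) (by decide))
    (key [209, 197, 17] _ _ (by decide) (by decide) (by decide))
    (key [209, 201, 17] _ _ (by decide) (by decide) (by decide))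
    (key [205, 28, 16, 1] _ _ (by decide) (by decide) (by decide))
    (key [] _ _ (by decide) (by decide) (by decide)) (key [20, 16] _ _ (by decide) (by decide) (by decide))
    (key [24, 16] _ _ (by decide) (by decide) (by decide)) (key [88, 85, 5] _ _ (by decide) (by decide) (by decide))
    (key [85, 80, 5] _ _ (by decide) (by decide) (by decide))
  rw [mul_one] at h1
  exact h.nt h1

/-- `N_a N_b N_a N_b = N_a N_b` -/
theorem NN_idem {a b : ℕ} (ha : Ok a) (hb : Ok b) (e : sf a b = true) (e' : sf b a = true) :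
    NN t a * NN t b * (NN t a * NN t b) = NN t a * NN t b := by
  have h1 := h.FF_idem ha hb e e'
  have h2 : FF t a b * (1 + FF t a b) = 0 := by rw [mul_add, mul_one, h1, h.add_self]
  have h3 := h.eq_of_FF ha hb e e' h2
  have h4 : NN t a * NN t b * (1 + FF t a b) = 0 := by
    have : NN t b * (1 + FF t a b) = NN t a * (1 + FF t a b) := by
      unfold NN
      rw [add_mul (t b), add_mul (t a), h3]
    rw [mul_assoc, this, ← mul_assoc, h.NN_sq ha, zero_mul]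
  rw [mul_add, mul_one, ← h.NN_anti a b, mul_add] at h4
  have h5 : NN t a * NN t b * (NN t b * NN t a) = 0 := by
    rw [mul_assoc, ← mul_assoc (NN t b), h.NN_sq hb, zero_mul, mul_zero]
  rw [h5, add_zero] at h4
  have h6 := h.add_self (NN t a * NN t b)
  exact add_left_cancel (h4.trans h6.symm)

section caseB

variable (hB : FF t 1 16 * FF t 2 32 = 0)

include hB

theorem B1 (l : List ℕ) (c d : ℕ) (hl : OkL l) (e1 : aw l 1 = c) (e2 : aw l 16 = d) (e3 : aw l 2 = 2)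
    (e4 : aw l 32 = 32) : FF t c d * FF t 2 32 = 0 := by
  have h1 := congrArg (conjHom (wu t l)) hB
  rw [map_mul, map_zero, h.cjF hl (by decide) (by decide) e1 e2, h.cjF hl (by decide) (by decide) e3 e4] at h1
  exact h1

/-- `N₁ F₂ = 0` -/
theorem B3 : NN t 1 * FF t 2 32 = 0 := by
  have h1 := h.seven_kill (X := FF t 2 32)
    (h.B1 hB [193, 1] _ _ (by decide) (by decide) (by decide) (by decide) (by decide))
    (h.B1 hB [209, 197, 17] _ _ (by decide) (by decide) (by decide) (by decide) (by decide))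
    (h.B1 hB [209, 201, 17] _ _ (by decide) (by decide) (by decide) (by decide) (by decide))
    (h.B1 hB [205, 28, 16, 1] _ _ (by decide) (by decide) (by decide) (by decide) (by decide))
    hB (h.B1 hB [20, 16] _ _ (by decide) (by decide) (by decide) (by decide) (by decide))
    (h.B1 hB [24, 16] _ _ (by decide) (by decide) (by decide) (by decide) (by decide))
    (h.B1 hB [88, 85, 5] _ _ (by decide) (by decide) (by decide) (by decide) (by decide))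
    (h.B1 hB [85, 80, 5] _ _ (by decide) (by decide) (by decide) (by decide) (by decide))
  unfold NN
  rw [add_mul, h1, one_mul, h.add_self]

theorem B4 (l : List ℕ) (c d : ℕ) (hl : OkL l) (e1 : aw l 2 = c) (e2 : aw l 32 = d) (e3 : aw l 1 = 1)
    (e4 : t 1 * t c = t c * t 1) (e5 : t 1 * t d = t d * t 1) : FF t c d * NN t 1 = 0 := by
  have h1 := congrArg (conjHom (wu t l)) (h.B3 hB)
  rw [map_mul, map_zero, h.cjF hl (by decide) (by decide) e1 e2, h.cjN hl (by decide) e3] at h1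
  have h2 := tF' e4 e5
  have h3 : NN t 1 * FF t c d = FF t c d * NN t 1 := by
    unfold NN
    rw [add_mul, mul_add, h2, one_mul, mul_one]
  rw [← h3, h1]

/-- `N_a N_b = 0` for one orthogonal pair -/
theorem B6 : NN t 2 * NN t 1 = 0 := by
  have h1 := h.seven_kill' (X := NN t 1)
    (h.B4 hB [194, 2] _ _ (by decide) (by decide) (by decide) (by decide) h.cc h.cc)
    (h.B4 hB [226, 198, 34] _ _ (by decide) (by decide) (by decide) (by decide) h.cc h.cc)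
    (h.B4 hB [226, 202, 34] _ _ (by decide) (by decide) (by decide) (by decide) h.cc h.cc)
    (h.B4 hB [206, 44, 32, 2] _ _ (by decide) (by decide) (by decide) (by decide) h.cc h.cc)
    (h.B4 hB [] _ _ (by decide) (by decide) (by decide) (by decide) h.cc h.cc)
    (h.B4 hB [36, 32] _ _ (by decide) (by decide) (by decide) (by decide) h.cc h.cc)
    (h.B4 hB [40, 32] _ _ (by decide) (by decide) (by decide) (by decide) h.cc h.cc)
    (h.B4 hB [104, 102, 6] _ _ (by decide) (by decide) (by decide) (by decide) h.cc h.cc)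
    (h.B4 hB [102, 96, 6] _ _ (by decide) (by decide) (by decide) (by decide) h.cc h.cc)
  have h2 : NN t 2 * NN t 1 = t 2 * NN t 1 + NN t 1 := by
    conv_lhs => rw [show NN t 2 = t 2 + 1 from rfl, add_mul, one_mul]
  rw [h2, h1, h.add_self]

theorem star (l : List ℕ) {a b : ℕ} (hl : OkL l) (e1 : aw l 2 = a) (e2 : aw l 1 = b) : NN t a * NN t b = 0 := by
  have h1 := congrArg (conjHom (wu t l)) (h.B6 hB)
  rw [map_mul, map_zero, h.cjN hl (by decide) e1, h.cjN hl (by decide) e2] at h1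
  exact h1

theorem star9 {a b : ℕ} (ha : a ∈ nine) (hb : b ∈ nine) (hab : a ≠ b) (hf : sf a b = false) :
    NN t a * NN t b = 0 := by
  obtain ⟨w, _, h1, h2, h3⟩ := star_cert a ha b hb hab hf
  exact h.star hB w h1 h2 h3

/-- the relation between the two neighbours of `j` -/
theorem tri {i j k y : ℕ} (hi : Ok i) (hj : Ok j) (hy : Ok y) (e1 : act j i = i ^^^ j) (e2 : act y (i ^^^ j) = k)
    (hij : Ok (i ^^^ j)) (h1 : NN t y * NN t j = 0) (h2 : NN t j * NN t y = 0) :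
    NN t j * NN t k * NN t j = NN t j * NN t i * NN t j := by
  have c1 : t y * NN t j = NN t j := by
    have : NN t y * NN t j = t y * NN t j + NN t j := by
      conv_lhs => rw [show NN t y = t y + 1 from rfl, add_mul, one_mul]
    rw [this] at h1
    exact add_right_cancel (h1.trans (h.add_self (NN t j)).symm)
  have c2 : NN t j * t y = NN t j := by
    have : NN t j * NN t y = NN t j * t y + NN t j := by
      conv_lhs => rw [show NN t y = t y + 1 from rfl, mul_add, mul_one]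
    rw [this] at h2
    exact add_right_cancel (h2.trans (h.add_self (NN t j)).symm)
  have c3 : NN t j * t j = NN t j := by
    have h3 := h.NN_sq hj
    have : NN t j * NN t j = NN t j * t j + NN t j := by
      conv_lhs => rw [show NN t j * NN t j = NN t j * (t j + 1) from rfl, mul_add, mul_one]
    rw [this] at h3
    exact add_right_cancel (h3.trans (h.add_self (NN t j)).symm)
  have c4 : t j * NN t j = NN t j := by
    have h3 := h.NN_sq hj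
    have : NN t j * NN t j = t j * NN t j + NN t j := by
      conv_lhs => rw [show NN t j * NN t j = (t j + 1) * NN t j from rfl, add_mul, one_mul]
    rw [this] at h3
    exact add_right_cancel (h3.trans (h.add_self (NN t j)).symm)
  have c5 : NN t (i ^^^ j) = t j * NN t i * t j := by
    unfold NN
    rw [mul_add, add_mul, mul_one, h.sq j hj, h.cj j i hj hi, e1]
  have c6 : NN t k = t y * NN t (i ^^^ j) * t y := by
    unfold NN
    rw [mul_add, add_mul, mul_one, h.sq y hy, h.cj y _ hy hij, e2]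
  rw [c6, c5]
  calc NN t j * (t y * (t j * NN t i * t j) * t y) * NN t j =
      ((NN t j * t y) * t j) * NN t i * (t j * (t y * NN t j)) := by simp only [mul_assoc]
    _ = NN t j * NN t i * NN t j := by rw [c1, c2, c3, c4]

end caseB

end Rep

end Cfsg.Agent.H765.EPS
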