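import Cfsg.Agent.H765.EPS.CaseB

/-!
# The modules of dimension 16 of `Sp₈(2)`: end of the case of small weights (helper765)
-/

set_option autoImplicit false
set_option linter.unusedSectionVars false

namespace Cfsg.Agent.H765.EPS

variable {F V : Type*} [Field F] [AddCommGroup V] [Module F V]

/-- the nine generators as a function -/
def xs9 : Fin 9 → ℕ := ![1, 16, 3, 32, 6, 64, 12, 128, 2]

def edges9 : List (Fin 9 × Fin 9) :=
  [(0, 1), (1, 0), (1, 2), (2, 1), (2, 3), (3, 2), (3, 4), (4, 3), (4, 5), (5, 4), (5, 6), (6, 5), (6, 7), (7, 6), (3, 8), (8, 3)]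

theorem xs9_mem : ∀ i, xs9 i ∈ nine := by decide

theorem xs9_inj : ∀ i j, xs9 i = xs9 j → i = j := by decide

theorem xs9_surj : ∀ x ∈ nine, ∃ i, xs9 i = x := by decide

theorem edges9_mem : ∀ i j, sf (xs9 i) (xs9 j) ≠ false → (i, j) ∈ edges9 := by decide

namespace Rep

variable {t : ℕ → Module.End F V} (h : Rep t)

include h

theorem caseB_false [FiniteDimensional F V] (hB : FF t 1 16 * FF t 2 32 = 0) : False := by
  -- the first vector
  obtain ⟨v, hv⟩ : ∃ v : V, NN t 1 (NN t 16 v) ≠ 0 := by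
    by_contra hcon
    push Not at hcon
    have h1 : NN t 1 * NN t 16 = 0 := LinearMap.ext hcon
    have h2 := h.NN_anti 1 16
    rw [h1, zero_add] at h2
    have h3 := h.FF_idem (a := 1) (b := 16) (by decide) (by decide) (by decide) (by decide)
    rw [← h2, mul_assoc, ← mul_assoc (NN t 1), h1, zero_mul, mul_zero] at h3
    exact h.FF_ne (h2.symm.trans h3.symm)
  set v1 := NN t 1 (NN t 16 v) with hv1
  have e12 : NN t 1 (NN t 16 v1) = v1 := by
    have h1 := h.NN_idem (a := 1) (b := 16) (by decide) (by decide) (by decide) (by decide)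
    have h2 := congrArg (fun f : Module.End F V => f v) h1
    exact h2
  have tr : ∀ i j k y : ℕ, Ok i → Ok j → Ok y → act j i = i ^^^ j → act y (i ^^^ j) = k → Ok (i ^^^ j) →
      NN t y * NN t j = 0 → NN t j * NN t y = 0 → ∀ w : V, NN t j (NN t k (NN t j w)) = NN t j (NN t i (NN t j w)) := by
    intro i j k y hi hj hy e1 e2 hij h1 h2 w
    have := congrArg (fun f : Module.End F V => f w) (h.tri (k := k) hB hi hj hy e1 e2 hij h1 h2)
    exact this
  have es : ∀ (i j k : ℕ) (w : V), (∀ w : V, NN t j (NN t k (NN t j w)) = NN t j (NN t i (NN t j w))) →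
      NN t i (NN t j w) = w → NN t j (NN t k (NN t j w)) = NN t j w := by
    intro i j k w h1 h2
    rw [h1, h2]
  have st : ∀ (l : List ℕ) {a b : ℕ}, OkL l → aw l 2 = a → aw l 1 = b → NN t a * NN t b = 0 :=
    fun l _ _ h1 h2 h3 => h.star hB l h1 h2 h3
  have t123 := tr 1 16 3 18 (by decide) (by decide) (by decide) (by decide) (by decide) (by decide)
    (st [48, 32, 17] (by decide) (by decide) (by decide)) (st [51, 33, 19] (by decide) (by decide) (by decide))
  have t234 := tr 16 3 32 51 (by decide) (by decide) (by decide) (by decide) (by decide) (by decide)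
    (st [49, 18, 16] (by decide) (by decide) (by decide)) (st [35, 34, 17] (by decide) (by decide) (by decide))
  have t345 := tr 3 32 6 37 (by decide) (by decide) (by decide) (by decide) (by decide) (by decide)
    (st [39, 22, 16] (by decide) (by decide) (by decide)) (st [34, 22, 16] (by decide) (by decide) (by decide))
  have t349 := tr 3 32 2 33 (by decide) (by decide) (by decide) (by decide) (by decide) (by decide)
    (st [35, 18, 16] (by decide) (by decide) (by decide)) (st [34, 18, 16] (by decide) (by decide) (by decide))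
  have t456 := tr 32 6 64 102 (by decide) (by decide) (by decide) (by decide) (by decide) (by decide)
    (st [99, 55, 48] (by decide) (by decide) (by decide)) (st [99, 52, 48] (by decide) (by decide) (by decide))
  have t567 := tr 6 64 12 74 (by decide) (by decide) (by decide) (by decide) (by decide) (by decide)
    (st [85, 61, 32, 20] (by decide) (by decide) (by decide)) (st [95, 61, 32, 20] (by decide) (by decide) (by decide))
  have t678 := tr 64 12 128 204 (by decide) (by decide) (by decide) (by decide) (by decide) (by decide)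
    (st [215, 121, 96, 20] (by decide) (by decide) (by decide)) (st [215, 110, 96, 20] (by decide) (by decide) (by decide))
  clear tr st
  obtain ⟨v2, hv2⟩ : ∃ x, x = NN t 16 v1 := ⟨_, rfl⟩
  obtain ⟨v3, hv3⟩ : ∃ x, x = NN t 3 v2 := ⟨_, rfl⟩
  obtain ⟨v4, hv4⟩ : ∃ x, x = NN t 32 v3 := ⟨_, rfl⟩
  obtain ⟨v5, hv5⟩ : ∃ x, x = NN t 6 v4 := ⟨_, rfl⟩
  obtain ⟨v6, hv6⟩ : ∃ x, x = NN t 64 v5 := ⟨_, rfl⟩
  obtain ⟨v7, hv7⟩ : ∃ x, x = NN t 12 v6 := ⟨_, rfl⟩
  obtain ⟨v8, hv8⟩ : ∃ x, x = NN t 128 v7 := ⟨_, rfl⟩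
  obtain ⟨v9, hv9⟩ : ∃ x, x = NN t 2 v4 := ⟨_, rfl⟩
  have e23 : NN t 16 (NN t 3 v2) = v2 := by rw [hv2]; exact es 1 16 3 v1 t123 e12
  have e34 : NN t 3 (NN t 32 v3) = v3 := by rw [hv3]; exact es 16 3 32 v2 t234 e23
  have e45 : NN t 32 (NN t 6 v4) = v4 := by rw [hv4]; exact es 3 32 6 v3 t345 e34
  have e49 : NN t 32 (NN t 2 v4) = v4 := by rw [hv4]; exact es 3 32 2 v3 t349 e34
  have e56 : NN t 6 (NN t 64 v5) = v5 := by rw [hv5]; exact es 32 6 64 v4 t456 e45
  have e67 : NN t 64 (NN t 12 v6) = v6 := by rw [hv6]; exact es 6 64 12 v5 t567 e56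
  have e78 : NN t 12 (NN t 128 v7) = v7 := by rw [hv7]; exact es 64 12 128 v6 t678 e67
  let vs : Fin 9 → V := ![v1, v2, v3, v4, v5, v6, v7, v8, v9]
  have hr : ∀ j, ∃ w, vs j = NN t (xs9 j) w := by
    intro j
    fin_cases j
    · exact ⟨_, hv1⟩
    · exact ⟨_, hv2⟩
    · exact ⟨_, hv3⟩
    · exact ⟨_, hv4⟩
    · exact ⟨_, hv5⟩
    · exact ⟨_, hv6⟩
    · exact ⟨_, hv7⟩
    · exact ⟨_, hv8⟩
    · exact ⟨_, hv9⟩
  have hP : ∀ i j : Fin 9, NN t (xs9 i) (vs j) = 0 ∨ NN t (xs9 i) (vs j) = vs i := by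
    intro i j
    by_cases hij : i = j
    · left
      subst hij
      obtain ⟨w, hw⟩ := hr i
      rw [hw, ← Module.End.mul_apply, h.NN_sq (nine_ok _ (xs9_mem i)), LinearMap.zero_apply]
    · by_cases hs : sf (xs9 i) (xs9 j) = false
      · left
        obtain ⟨w, hw⟩ := hr j
        rw [hw, ← Module.End.mul_apply, h.star9 hB (xs9_mem i) (xs9_mem j) (fun e => hij (xs9_inj _ _ e)) hs,
          LinearMap.zero_apply]
      · right
        have h1 := edges9_mem i j hs
        unfold edges9 at h1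
        simp only [List.mem_cons, Prod.mk.injEq, List.not_mem_nil, or_false] at h1
        rcases h1 with ⟨rfl, rfl⟩ | ⟨rfl, rfl⟩ | ⟨rfl, rfl⟩ | ⟨rfl, rfl⟩ | ⟨rfl, rfl⟩ | ⟨rfl, rfl⟩ | ⟨rfl, rfl⟩ |
          ⟨rfl, rfl⟩ | ⟨rfl, rfl⟩ | ⟨rfl, rfl⟩ | ⟨rfl, rfl⟩ | ⟨rfl, rfl⟩ | ⟨rfl, rfl⟩ | ⟨rfl, rfl⟩ | ⟨rfl, rfl⟩ |
          ⟨rfl, rfl⟩
        · show NN t 1 v2 = v1
          rw [hv2]; exact e12
        · exact hv2.symm
        · show NN t 16 v3 = v2
          rw [hv3]; exact e23
        · exact hv3.symm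
        · show NN t 3 v4 = v3
          rw [hv4]; exact e34
        · exact hv4.symm
        · show NN t 32 v5 = v4
          rw [hv5]; exact e45
        · exact hv5.symm
        · show NN t 6 v6 = v5
          rw [hv6]; exact e56
        · exact hv6.symm
        · show NN t 64 v7 = v6
          rw [hv7]; exact e67
        · exact hv7.symm
        · show NN t 12 v8 = v7
          rw [hv8]; exact e78
        · exact hv8.symm
        · show NN t 32 v9 = v4
          rw [hv9]; exact e49
        · exact hv9.symm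
  let U : Submodule F V := Submodule.span F (Set.range vs)
  have hmem : ∀ j, vs j ∈ U := fun j => Submodule.subset_span ⟨j, rfl⟩
  have hU : ∀ x, Ok x → ∀ u ∈ U, t x u ∈ U := by
    intro x hx
    refine h.inv_of_nine (U := U) ?_ hx
    intro x hx
    obtain ⟨i, rfl⟩ := xs9_surj x hx
    have h1 : ∀ u ∈ U, NN t (xs9 i) u ∈ U := by
      intro u hu
      have h2 : U.map (NN t (xs9 i)) ≤ U := by
        rw [Submodule.map_span, Submodule.span_le]
        rintro _ ⟨_, ⟨j, rfl⟩, rfl⟩
        rcases hP i j with e | e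
        · rw [e]; exact U.zero_mem
        · rw [e]; exact hmem i
      exact h2 ⟨u, hu, rfl⟩
    intro u hu
    have h2 : t (xs9 i) u = NN t (xs9 i) u + u := by
      show _ = (t (xs9 i) + 1) u + u
      rw [LinearMap.add_apply, Module.End.one_apply, add_assoc, h.add_selfV, add_zero]
    rw [h2]
    exact U.add_mem (h1 u hu) hu
  have hfr : Module.finrank F U ≤ 9 := by
    have h1 := finrank_range_le_card (R := F) vs
    rw [Fintype.card_fin] at h1
    exact h1
  rcases h.irr U hU with h1 | h1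
  · have h2 := hmem 0
    rw [h1, Submodule.mem_bot] at h2
    exact hv h2
  · rw [h1, finrank_top, h.rank] at hfr
    omega

/-- **Only the case `F = 1`.** -/
theorem caseA [FiniteDimensional F V] : FF t 1 16 = 1 ∧
    ∃ v : V, v ≠ 0 ∧ NN t 1 v = 0 ∧ NN t 2 v = 0 ∧ NN t 4 v = 0 ∧ NN t 8 v = 0 := by
  rcases h.dich with h1 | h1
  · exact (h.caseB_false h1).elim
  · exact h1

end Rep

end Cfsg.Agent.H765.EPS
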