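import Cfsg.Agent.H765.EPS.Basic

/-!
# The modules of dimension 16 of `Sp₈(2)`: the weights of `3⁴` (helper765)
-/

set_option autoImplicit false
set_option linter.unusedSectionVars false

namespace Cfsg.Agent.H765.EPS

variable {F V : Type*} [Field F] [AddCommGroup V] [Module F V]

/-- eigenspaces of `FF a b` -/
def KK (t : ℕ → Module.End F V) (a b : ℕ) : Bool → Submodule F V
  | true => LinearMap.ker (Rep.FF t a b + 1)
  | false => LinearMap.ker (Rep.FF t a b)

def XX (t : ℕ → Module.End F V) (b1 b2 b3 b4 : Bool) : Submodule F V :=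
  (((⊤ ⊓ KK t 1 16 b1) ⊓ KK t 2 32 b2) ⊓ KK t 4 64 b3) ⊓ KK t 8 128 b4

/-- the submodule is invariant under `g` -/
def Inv (X : Submodule F V) (g : Module.End F V) : Prop := ∀ v ∈ X, g v ∈ X

theorem Inv.top (g : Module.End F V) : Inv (⊤ : Submodule F V) g := fun _ _ => Submodule.mem_top

theorem Inv.inf {X Y : Submodule F V} {g : Module.End F V} (h1 : Inv X g) (h2 : Inv Y g) : Inv (X ⊓ Y) g :=
  fun v hv => ⟨h1 v hv.1, h2 v hv.2⟩

theorem Inv.add {X : Submodule F V} {g k : Module.End F V} (h1 : Inv X g) (h2 : Inv X k) : Inv X (g + k) :=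
  fun v hv => X.add_mem (h1 v hv) (h2 v hv)

theorem Inv.mul {X : Submodule F V} {g k : Module.End F V} (h1 : Inv X g) (h2 : Inv X k) : Inv X (g * k) :=
  fun v hv => h1 _ (h2 v hv)

theorem Inv.one {X : Submodule F V} : Inv X (1 : Module.End F V) := fun _ hv => hv

theorem Inv.ker {g k : Module.End F V} (h : g * k = k * g) : Inv (LinearMap.ker k) g := by
  intro v hv
  rw [LinearMap.mem_ker] at hv ⊢
  rw [← Module.End.mul_apply, ← h, Module.End.mul_apply, hv, map_zero]

theorem Inv.KK {t : ℕ → Module.End F V} {g : Module.End F V} {a b : ℕ} (h : g * Rep.FF t a b = Rep.FF t a b * g)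
    (c : Bool) : Inv (KK t a b c) g := by
  cases c
  · exact Inv.ker h
  · exact Inv.ker (by rw [mul_add, add_mul, h, mul_one, one_mul])

theorem Inv.FF {X : Submodule F V} {t : ℕ → Module.End F V} {a b : ℕ} (h1 : Inv X (t a)) (h2 : Inv X (t b)) :
    Inv X (Rep.FF t a b) := (h1.mul h2).add (h2.mul h1)

theorem Inv.NN {X : Submodule F V} {t : ℕ → Module.End F V} {a : ℕ} (h1 : Inv X (t a)) :
    Inv X (Rep.NN t a) := h1.add Inv.one

namespace Rep

variable {t : ℕ → Module.End F V} (h : Rep t)

include h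

/-- `t a` commutes with `FF a b` -/
theorem tF {a b : ℕ} (ha : Ok a) : t a * FF t a b = FF t a b * t a := by
  unfold FF
  have h1 := h.sq a ha
  have e1 : t a * (t a * t b + t b * t a) = (t a * t a) * t b + t a * t b * t a := by noncomm_ring
  have e2 : (t a * t b + t b * t a) * t a = t a * t b * t a + t b * (t a * t a) := by noncomm_ring
  rw [e1, e2, h1, one_mul, mul_one, add_comm]

omit h in
theorem tF' {a b c : ℕ} (h1 : t a * t b = t b * t a) (h2 : t a * t c = t c * t a) :
    t a * FF t b c = FF t b c * t a := by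
  have c1 : Commute (t a) (t b) := h1
  have c2 : Commute (t a) (t c) := h2
  exact (c1.mul_right c2).add_right (c2.mul_right c1)

theorem KK_true {a b : ℕ} {v : V} (hv : v ∈ KK t a b true) : FF t a b v = v := by
  have h1 : (FF t a b + 1) v = 0 := hv
  rw [LinearMap.add_apply, Module.End.one_apply] at h1
  have h2 := h.add_selfV v
  calc FF t a b v = FF t a b v + (v + v) := by rw [h2, add_zero]
    _ = (FF t a b v + v) + v := by rw [add_assoc]
    _ = v := by rw [h1, zero_add]

theorem splitF [FiniteDimensional F V] {a b : ℕ} (ha : Ok a) (hb : Ok b) (e : sf a b = true) (e' : sf b a = true)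
    {X : Submodule F V} (hX : Inv X (FF t a b)) :
    Module.finrank F X = Module.finrank F (X ⊓ KK t a b true : Submodule F V) +
      Module.finrank F (X ⊓ KK t a b false : Submodule F V) :=
  split h.add_selfV (h.FF_idem ha hb e e') hX

theorem stepF [FiniteDimensional F V] {a b : ℕ} (ha : Ok a) (hb : Ok b)
    {X : Submodule F V} (hXa : Inv X (t a)) (hXb : Inv X (t b)) (h1 : ∀ v ∈ X, FF t a b v = v) :
    Module.finrank F X = 2 * Module.finrank F (X ⊓ LinearMap.ker (NN t a) : Submodule F V) := by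
  refine step (a := NN t a) (c := NN t b) (h.NN_sq ha) (h.NN_sq hb) hXa.NN hXb.NN ?_
  intro v hv
  have h2 := h.NN_anti a b
  rw [← Module.End.mul_apply, ← Module.End.mul_apply, ← LinearMap.add_apply, h2]
  exact h1 v hv

/-- the transvections `1, 2, 4, 8, 16, 32, 64, 128` -/
theorem cc {a b : ℕ} (ha : Ok a := by decide) (hb : Ok b := by decide) (e : act a b = b := by decide) :
    t a * t b = t b * t a := h.comm_of ha hb e

theorem inv_XX {a : ℕ} (e1 : t a * FF t 1 16 = FF t 1 16 * t a) (e2 : t a * FF t 2 32 = FF t 2 32 * t a)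
    (e3 : t a * FF t 4 64 = FF t 4 64 * t a) (e4 : t a * FF t 8 128 = FF t 8 128 * t a) (b1 b2 b3 b4 : Bool) :
    Inv (XX t b1 b2 b3 b4) (t a) :=
  ((((Inv.top _).inf (Inv.KK e1 b1)).inf (Inv.KK e2 b2)).inf (Inv.KK e3 b3)).inf (Inv.KK e4 b4)

theorem inv_all {a : ℕ} (ha : a ∈ [1, 16, 2, 32, 4, 64, 8, 128]) (b1 b2 b3 b4 : Bool) : Inv (XX t b1 b2 b3 b4) (t a) := by
  have hok : Ok a := by
    have : ∀ a ∈ [1, 16, 2, 32, 4, 64, 8, 128], Ok a := by decide
    exact this a ha
  simp only [List.mem_cons, List.not_mem_nil, or_false] at ha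
  rcases ha with rfl | rfl | rfl | rfl | rfl | rfl | rfl | rfl
  · exact h.inv_XX (h.tF hok) (tF' h.cc h.cc) (tF' h.cc h.cc) (tF' h.cc h.cc) _ _ _ _
  · exact h.inv_XX (by rw [FF_symm]; exact h.tF hok) (tF' h.cc h.cc) (tF' h.cc h.cc) (tF' h.cc h.cc) _ _ _ _
  · exact h.inv_XX (tF' h.cc h.cc) (h.tF hok) (tF' h.cc h.cc) (tF' h.cc h.cc) _ _ _ _
  · exact h.inv_XX (tF' h.cc h.cc) (by rw [FF_symm]; exact h.tF hok) (tF' h.cc h.cc) (tF' h.cc h.cc) _ _ _ _
  · exact h.inv_XX (tF' h.cc h.cc) (tF' h.cc h.cc) (h.tF hok) (tF' h.cc h.cc) _ _ _ _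
  · exact h.inv_XX (tF' h.cc h.cc) (tF' h.cc h.cc) (by rw [FF_symm]; exact h.tF hok) (tF' h.cc h.cc) _ _ _ _
  · exact h.inv_XX (tF' h.cc h.cc) (tF' h.cc h.cc) (tF' h.cc h.cc) (h.tF hok) _ _ _ _
  · exact h.inv_XX (tF' h.cc h.cc) (tF' h.cc h.cc) (tF' h.cc h.cc) (by rw [FF_symm]; exact h.tF hok) _ _ _ _

/-- invariance of the partial intersections -/
theorem F_comm {a b c d : ℕ} (h1 : t a * t c = t c * t a) (h2 : t a * t d = t d * t a) (h3 : t b * t c = t c * t b)
    (h4 : t b * t d = t d * t b) : FF t a b * FF t c d = FF t c d * FF t a b := h.FF_comm h1 h2 h3 h4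

/-- the dimension of `V` is the sum of the sixteen dimensions -/
theorem sum16 [FiniteDimensional F V] : ∀ n : Bool → Bool → Bool → Bool → ℕ,
    (∀ b1 b2 b3 b4, n b1 b2 b3 b4 = Module.finrank F (XX t b1 b2 b3 b4)) →
    n true true true true + n true true true false + n true true false true + n true true false false +
    n true false true true + n true false true false + n true false false true + n true false false false +
    n false true true true + n false true true false + n false true false true + n false true false false +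
    n false false true true + n false false true false + n false false false true + n false false false false = 16 := by
  intro n hn
  have h0 : Module.finrank F (⊤ : Submodule F V) = 16 := by rw [finrank_top]; exact h.rank
  have s1 := h.splitF (a := 1) (b := 16) (by decide) (by decide) (by decide) (by decide) (Inv.top _)
  have s2 : ∀ b1, Module.finrank F (⊤ ⊓ KK t 1 16 b1 : Submodule F V) = _ := fun b1 =>
    h.splitF (a := 2) (b := 32) (by decide) (by decide) (by decide) (by decide) (X := ⊤ ⊓ KK t 1 16 b1)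
      ((Inv.top _).inf (Inv.KK (h.F_comm h.cc h.cc h.cc h.cc) b1))
  have s3 : ∀ b1 b2, Module.finrank F ((⊤ ⊓ KK t 1 16 b1) ⊓ KK t 2 32 b2 : Submodule F V) = _ := fun b1 b2 =>
    h.splitF (a := 4) (b := 64) (by decide) (by decide) (by decide) (by decide) (X := (⊤ ⊓ KK t 1 16 b1) ⊓ KK t 2 32 b2)
      (((Inv.top _).inf (Inv.KK (h.F_comm h.cc h.cc h.cc h.cc) b1)).inf (Inv.KK (h.F_comm h.cc h.cc h.cc h.cc) b2))
  have s4 : ∀ b1 b2 b3, Module.finrank F (((⊤ ⊓ KK t 1 16 b1) ⊓ KK t 2 32 b2) ⊓ KK t 4 64 b3 : Submodule F V) =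
      n b1 b2 b3 true + n b1 b2 b3 false := fun b1 b2 b3 => by
    rw [hn, hn]
    exact h.splitF (a := 8) (b := 128) (by decide) (by decide) (by decide) (by decide)
      (X := ((⊤ ⊓ KK t 1 16 b1) ⊓ KK t 2 32 b2) ⊓ KK t 4 64 b3)
      ((((Inv.top _).inf (Inv.KK (h.F_comm h.cc h.cc h.cc h.cc) b1)).inf
        (Inv.KK (h.F_comm h.cc h.cc h.cc h.cc) b2)).inf (Inv.KK (h.F_comm h.cc h.cc h.cc h.cc) b3))
  rw [s2, s2, s3, s3, s3, s3, s4, s4, s4, s4, s4, s4, s4, s4, h0] at s1
  omega

/-- a unit permuting the idempotents -/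
theorem perm_le [FiniteDimensional F V] {X Y : Submodule F V} (u : (Module.End F V)ˣ)
    (hXY : ∀ v ∈ X, (u : Module.End F V) v ∈ Y) : Module.finrank F X ≤ Module.finrank F Y := by
  have hinj : Function.Injective (u : Module.End F V) := by
    intro v w e
    have h1 := congrArg (((u⁻¹ : (Module.End F V)ˣ) : Module.End F V)) e
    rw [← Module.End.mul_apply, ← Module.End.mul_apply, Units.inv_mul, Module.End.one_apply, Module.End.one_apply] at h1
    exact h1
  refine LinearMap.finrank_le_finrank_of_injective (f := (u : Module.End F V).restrict hXY) ?_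
  intro v w e
  exact Subtype.ext (hinj (Subtype.ext_iff.1 e))

omit h in
theorem KK_map {u : (Module.End F V)ˣ} {a b c d : ℕ} (e : conjHom u (FF t a b) = FF t c d) {β : Bool} {v : V}
    (hv : v ∈ KK t a b β) : (u : Module.End F V) v ∈ KK t c d β := by
  rw [conjHom_apply, Units.mul_inv_eq_iff_eq_mul] at e
  cases β
  · show FF t c d ((u : Module.End F V) v) = 0
    rw [← Module.End.mul_apply, ← e, Module.End.mul_apply]
    have h1 : FF t a b v = 0 := hv
    rw [h1, map_zero]
  · show (FF t c d + 1) ((u : Module.End F V) v) = 0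
    rw [← Module.End.mul_apply, add_mul, ← e, one_mul]
    have h1 : (FF t a b + 1) v = 0 := hv
    rw [LinearMap.add_apply, Module.End.one_apply] at h1
    rw [LinearMap.add_apply, Module.End.mul_apply, ← map_add, h1, map_zero]

theorem s12_le [FiniteDimensional F V] (b1 b2 b3 b4 : Bool) :
    Module.finrank F (XX t b1 b2 b3 b4) ≤ Module.finrank F (XX t b2 b1 b3 b4) := by
  refine h.perm_le (wu t [3, 48, 51]) ?_
  rintro v ⟨⟨⟨⟨_, h1⟩, h2⟩, h3⟩, h4⟩
  exact ⟨⟨⟨⟨Submodule.mem_top, KK_map (h.cjF (by decide) (by decide) (by decide) (by decide) (by decide)) h2⟩,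
    KK_map (h.cjF (by decide) (by decide) (by decide) (by decide) (by decide)) h1⟩,
    KK_map (h.cjF (by decide) (by decide) (by decide) (by decide) (by decide)) h3⟩,
    KK_map (h.cjF (by decide) (by decide) (by decide) (by decide) (by decide)) h4⟩

theorem s23_le [FiniteDimensional F V] (b1 b2 b3 b4 : Bool) :
    Module.finrank F (XX t b1 b2 b3 b4) ≤ Module.finrank F (XX t b1 b3 b2 b4) := by
  refine h.perm_le (wu t [6, 96, 102]) ?_
  rintro v ⟨⟨⟨⟨_, h1⟩, h2⟩, h3⟩, h4⟩
  exact ⟨⟨⟨⟨Submodule.mem_top, KK_map (h.cjF (by decide) (by decide) (by decide) (by decide) (by decide)) h1⟩,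
    KK_map (h.cjF (by decide) (by decide) (by decide) (by decide) (by decide)) h3⟩,
    KK_map (h.cjF (by decide) (by decide) (by decide) (by decide) (by decide)) h2⟩,
    KK_map (h.cjF (by decide) (by decide) (by decide) (by decide) (by decide)) h4⟩

theorem s34_le [FiniteDimensional F V] (b1 b2 b3 b4 : Bool) :
    Module.finrank F (XX t b1 b2 b3 b4) ≤ Module.finrank F (XX t b1 b2 b4 b3) := by
  refine h.perm_le (wu t [12, 192, 204]) ?_
  rintro v ⟨⟨⟨⟨_, h1⟩, h2⟩, h3⟩, h4⟩
  exact ⟨⟨⟨⟨Submodule.mem_top, KK_map (h.cjF (by decide) (by decide) (by decide) (by decide) (by decide)) h1⟩,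
    KK_map (h.cjF (by decide) (by decide) (by decide) (by decide) (by decide)) h2⟩,
    KK_map (h.cjF (by decide) (by decide) (by decide) (by decide) (by decide)) h4⟩,
    KK_map (h.cjF (by decide) (by decide) (by decide) (by decide) (by decide)) h3⟩

/-- dimension of `XX true true b3 b4` -/
theorem four_dvd [FiniteDimensional F V] (b3 b4 : Bool) :
    Module.finrank F (XX t true true b3 b4) =
      4 * Module.finrank F ((XX t true true b3 b4 ⊓ LinearMap.ker (NN t 1)) ⊓ LinearMap.ker (NN t 2) : Submodule F V) := by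
  have hi := fun a ha => h.inv_all (a := a) ha true true b3 b4
  have hN : ∀ a b, t a * t b = t b * t a → t a * NN t b = NN t b * t a := by
    intro a b e
    unfold NN
    rw [mul_add, add_mul, e, mul_one, one_mul]
  rw [h.stepF (a := 1) (b := 16) (by decide) (by decide) (hi 1 (by decide)) (hi 16 (by decide))
    (fun v hv => h.KK_true hv.1.1.1.2)]
  rw [h.stepF (a := 2) (b := 32) (by decide) (by decide) (X := XX t true true b3 b4 ⊓ LinearMap.ker (NN t 1))
    ((hi 2 (by decide)).inf (Inv.ker (hN _ _ h.cc))) ((hi 32 (by decide)).inf (Inv.ker (hN _ _ h.cc)))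
    (fun v hv => h.KK_true hv.1.1.1.2)]
  ring

/-- dimension of `XX true true true b4` -/
theorem eight_dvd [FiniteDimensional F V] (b4 : Bool) :
    Module.finrank F (XX t true true true b4) =
      8 * Module.finrank F (((XX t true true true b4 ⊓ LinearMap.ker (NN t 1)) ⊓ LinearMap.ker (NN t 2)) ⊓
        LinearMap.ker (NN t 4) : Submodule F V) := by
  have hi := fun a ha => h.inv_all (a := a) ha true true true b4
  have hN : ∀ a b, t a * t b = t b * t a → t a * NN t b = NN t b * t a := by
    intro a b e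
    unfold NN
    rw [mul_add, add_mul, e, mul_one, one_mul]
  rw [h.four_dvd, h.stepF (a := 4) (b := 64) (by decide) (by decide)
    (X := (XX t true true true b4 ⊓ LinearMap.ker (NN t 1)) ⊓ LinearMap.ker (NN t 2))
    (((hi 4 (by decide)).inf (Inv.ker (hN _ _ h.cc))).inf (Inv.ker (hN _ _ h.cc)))
    (((hi 64 (by decide)).inf (Inv.ker (hN _ _ h.cc))).inf (Inv.ker (hN _ _ h.cc)))
    (fun v hv => h.KK_true hv.1.1.1.2)]
  ring

/-- dimension of `XX true true true true` -/
theorem sixteen_dvd [FiniteDimensional F V] :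
    Module.finrank F (XX t true true true true) =
      16 * Module.finrank F ((((XX t true true true true ⊓ LinearMap.ker (NN t 1)) ⊓ LinearMap.ker (NN t 2)) ⊓
        LinearMap.ker (NN t 4)) ⊓ LinearMap.ker (NN t 8) : Submodule F V) := by
  have hi := fun a ha => h.inv_all (a := a) ha true true true true
  have hN : ∀ a b, t a * t b = t b * t a → t a * NN t b = NN t b * t a := by
    intro a b e
    unfold NN
    rw [mul_add, add_mul, e, mul_one, one_mul]
  rw [h.eight_dvd, h.stepF (a := 8) (b := 128) (by decide) (by decide)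
    (X := ((XX t true true true true ⊓ LinearMap.ker (NN t 1)) ⊓ LinearMap.ker (NN t 2)) ⊓ LinearMap.ker (NN t 4))
    ((((hi 8 (by decide)).inf (Inv.ker (hN _ _ h.cc))).inf (Inv.ker (hN _ _ h.cc))).inf (Inv.ker (hN _ _ h.cc)))
    ((((hi 128 (by decide)).inf (Inv.ker (hN _ _ h.cc))).inf (Inv.ker (hN _ _ h.cc))).inf (Inv.ker (hN _ _ h.cc)))
    (fun v hv => h.KK_true hv.1.1.1.2)]
  ring

/-- **The dichotomy.** -/
theorem dich [FiniteDimensional F V] : FF t 1 16 * FF t 2 32 = 0 ∨
    (FF t 1 16 = 1 ∧ ∃ v : V, v ≠ 0 ∧ NN t 1 v = 0 ∧ NN t 2 v = 0 ∧ NN t 4 v = 0 ∧ NN t 8 v = 0) := by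
  obtain ⟨n, hn⟩ : ∃ n : Bool → Bool → Bool → Bool → ℕ, ∀ b1 b2 b3 b4, n b1 b2 b3 b4 =
    Module.finrank F (XX t b1 b2 b3 b4) := ⟨_, fun _ _ _ _ => rfl⟩
  have hs := h.sum16 n hn
  have p12 : ∀ b1 b2 b3 b4, n b1 b2 b3 b4 ≤ n b2 b1 b3 b4 := fun b1 b2 b3 b4 => by rw [hn, hn]; exact h.s12_le _ _ _ _
  have p23 : ∀ b1 b2 b3 b4, n b1 b2 b3 b4 ≤ n b1 b3 b2 b4 := fun b1 b2 b3 b4 => by rw [hn, hn]; exact h.s23_le _ _ _ _
  have p34 : ∀ b1 b2 b3 b4, n b1 b2 b3 b4 ≤ n b1 b2 b4 b3 := fun b1 b2 b3 b4 => by rw [hn, hn]; exact h.s34_le _ _ _ _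
  obtain ⟨m2, h2⟩ : ∃ m, n true true false false = 4 * m := ⟨_, by rw [hn]; exact h.four_dvd _ _⟩
  obtain ⟨m3, h3⟩ : ∃ m, n true true true false = 8 * m := ⟨_, by rw [hn]; exact h.eight_dvd _⟩
  have h4 := h.sixteen_dvd
  rw [← hn] at h4
  have q1 := p23 true true false false
  have q2 := p34 true false true false
  have q3 := p12 true false true false
  have q4 := p12 true false false true
  have q5 := p34 false true true false
  have q6 := p23 false true false true
  have r1 := p34 true true true false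
  have r2 := p23 true true false true
  have r3 := p12 true false true true
  have r4 := p34 true true false true
  by_cases h5 : n true true true true = 0
  · left
    have h6 : n true true false false = 0 ∧ n true true true false = 0 ∧ n true true false true = 0 := by omega
    have hX : ∀ b3 b4, XX t true true b3 b4 = ⊥ := by
      intro b3 b4
      rw [← Submodule.finrank_eq_zero (R := F), ← hn]
      cases b3 <;> cases b4
      · exact h6.1
      · exact h6.2.2
      · exact h6.2.1
      · exact h5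
    have hY : ((⊤ ⊓ KK t 1 16 true) ⊓ KK t 2 32 true : Submodule F V) = ⊥ := by
      rw [← Submodule.finrank_eq_zero (R := F)]
      have s3 := h.splitF (a := 4) (b := 64) (by decide) (by decide) (by decide) (by decide)
        (X := (⊤ ⊓ KK t 1 16 true) ⊓ KK t 2 32 true)
        (((Inv.top _).inf (Inv.KK (h.F_comm h.cc h.cc h.cc h.cc) _)).inf (Inv.KK (h.F_comm h.cc h.cc h.cc h.cc) _))
      have s4 : ∀ b3, Module.finrank F (((⊤ ⊓ KK t 1 16 true) ⊓ KK t 2 32 true) ⊓ KK t 4 64 b3 : Submodule F V) = 0 :=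
        fun b3 => by
        rw [h.splitF (a := 8) (b := 128) (by decide) (by decide) (by decide) (by decide)
          (X := ((⊤ ⊓ KK t 1 16 true) ⊓ KK t 2 32 true) ⊓ KK t 4 64 b3)
          ((((Inv.top _).inf (Inv.KK (h.F_comm h.cc h.cc h.cc h.cc) _)).inf
            (Inv.KK (h.F_comm h.cc h.cc h.cc h.cc) _)).inf (Inv.KK (h.F_comm h.cc h.cc h.cc h.cc) _))]
        have e1 := hX b3 true
        have e2 := hX b3 false
        unfold XX at e1 e2
        rw [e1, e2, finrank_bot]
      rw [s3, s4, s4]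
    have i1 := h.FF_idem (a := 1) (b := 16) (by decide) (by decide) (by decide) (by decide)
    have i2 := h.FF_idem (a := 2) (b := 32) (by decide) (by decide) (by decide) (by decide)
    have i3 : FF t 1 16 * FF t 2 32 = FF t 2 32 * FF t 1 16 := h.F_comm h.cc h.cc h.cc h.cc
    apply LinearMap.ext
    intro v
    rw [LinearMap.zero_apply, ← Submodule.mem_bot F, ← hY]
    refine ⟨⟨Submodule.mem_top, ?_⟩, ?_⟩
    · show (FF t 1 16 + 1) ((FF t 1 16 * FF t 2 32) v) = 0
      rw [← Module.End.mul_apply, add_mul, ← mul_assoc, i1, one_mul, h.add_self, LinearMap.zero_apply]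
    · show (FF t 2 32 + 1) ((FF t 1 16 * FF t 2 32) v) = 0
      rw [← Module.End.mul_apply, i3, add_mul, ← mul_assoc, i2, one_mul, h.add_self, LinearMap.zero_apply]
  · right
    have h6 : n true true true true = 16 := by omega
    have h7 : XX t true true true true = ⊤ := by
      apply Submodule.eq_top_of_finrank_eq
      rw [← hn, h6, h.rank]
    constructor
    · apply LinearMap.ext
      intro v
      have hv : v ∈ XX t true true true true := by rw [h7]; exact Submodule.mem_top
      exact h.KK_true hv.1.1.1.2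
    · have h8 : ((((XX t true true true true ⊓ LinearMap.ker (NN t 1)) ⊓ LinearMap.ker (NN t 2)) ⊓
        LinearMap.ker (NN t 4)) ⊓ LinearMap.ker (NN t 8) : Submodule F V) ≠ ⊥ := by
        intro e
        rw [e, finrank_bot] at h4
        omega
      obtain ⟨v, hv, hv0⟩ := Submodule.exists_mem_ne_zero_of_ne_bot h8
      exact ⟨v, hv0, hv.1.1.1.2, hv.1.1.2, hv.1.2, hv.2⟩

end Rep

end Cfsg.Agent.H765.EPS
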