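import Cfsg.Agent.H765.EPS.CaseBEnd

/-!
# The modules of dimension 16 of `Sp₈(2)`: the Fock space (helper765)
-/

set_option autoImplicit false
set_option linter.unusedSectionVars false
set_option linter.unusedSimpArgs false

namespace Cfsg.Agent.H765.EPS

variable {F V : Type*} [Field F] [AddCommGroup V] [Module F V]

/-- the vector with the support `m` -/
def phi (C : ℕ → V) (m : ℕ) : V := ∑ S ∈ Finset.range 16, if m.testBit S = true then C S else 0

theorem phi_xor (h2 : ∀ v : V, v + v = 0) (C : ℕ → V) (m n : ℕ) : phi C (m ^^^ n) = phi C m + phi C n := by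
  unfold phi
  rw [← Finset.sum_add_distrib]
  refine Finset.sum_congr rfl fun S _ => ?_
  rw [Nat.testBit_xor]
  cases m.testBit S <;> cases n.testBit S <;> simp [h2]

theorem phi_c0 {C : ℕ → V} {c : Module.End F V}
    (hC : ∀ S < 16, c (C S) = if S.testBit 0 = true then 0 else C (S + 1))
    (m : ℕ) : c (phi C m) = phi C ((m &&& 21845) <<< 1) := by
  unfold phi
  rw [map_sum]
  have h1 : ∀ S ∈ Finset.range 16, c (if m.testBit S = true then C S else 0) =
      if m.testBit S = true then (if S.testBit 0 = true then 0 else C (S + 1)) else 0 := by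
    intro S hS
    rw [← hC S (Finset.mem_range.1 hS)]
    split_ifs <;> simp
  rw [Finset.sum_congr rfl h1]
  simp only [Finset.sum_range_succ, Finset.sum_range_zero, Nat.testBit_shiftLeft, Nat.testBit_and]
  simp [Nat.testBit]

theorem phi_a0 {C : ℕ → V} {c : Module.End F V}
    (hC : ∀ S < 16, c (C S) = if S.testBit 0 = true then C (S - 1) else 0)
    (m : ℕ) : c (phi C m) = phi C ((m >>> 1) &&& 21845) := by
  unfold phi
  rw [map_sum]
  have h1 : ∀ S ∈ Finset.range 16, c (if m.testBit S = true then C S else 0) =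
      if m.testBit S = true then (if S.testBit 0 = true then C (S - 1) else 0) else 0 := by
    intro S hS
    rw [← hC S (Finset.mem_range.1 hS)]
    split_ifs <;> simp
  rw [Finset.sum_congr rfl h1]
  simp only [Finset.sum_range_succ, Finset.sum_range_zero, Nat.testBit_shiftRight, Nat.testBit_and]
  simp [Nat.testBit]

theorem phi_c1 {C : ℕ → V} {c : Module.End F V}
    (hC : ∀ S < 16, c (C S) = if S.testBit 1 = true then 0 else C (S + 2))
    (m : ℕ) : c (phi C m) = phi C ((m &&& 13107) <<< 2) := by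
  unfold phi
  rw [map_sum]
  have h1 : ∀ S ∈ Finset.range 16, c (if m.testBit S = true then C S else 0) =
      if m.testBit S = true then (if S.testBit 1 = true then 0 else C (S + 2)) else 0 := by
    intro S hS
    rw [← hC S (Finset.mem_range.1 hS)]
    split_ifs <;> simp
  rw [Finset.sum_congr rfl h1]
  simp only [Finset.sum_range_succ, Finset.sum_range_zero, Nat.testBit_shiftLeft, Nat.testBit_and]
  simp [Nat.testBit]

theorem phi_a1 {C : ℕ → V} {c : Module.End F V}
    (hC : ∀ S < 16, c (C S) = if S.testBit 1 = true then C (S - 2) else 0)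
    (m : ℕ) : c (phi C m) = phi C ((m >>> 2) &&& 13107) := by
  unfold phi
  rw [map_sum]
  have h1 : ∀ S ∈ Finset.range 16, c (if m.testBit S = true then C S else 0) =
      if m.testBit S = true then (if S.testBit 1 = true then C (S - 2) else 0) else 0 := by
    intro S hS
    rw [← hC S (Finset.mem_range.1 hS)]
    split_ifs <;> simp
  rw [Finset.sum_congr rfl h1]
  simp only [Finset.sum_range_succ, Finset.sum_range_zero, Nat.testBit_shiftRight, Nat.testBit_and]
  simp [Nat.testBit]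

theorem phi_c2 {C : ℕ → V} {c : Module.End F V}
    (hC : ∀ S < 16, c (C S) = if S.testBit 2 = true then 0 else C (S + 4))
    (m : ℕ) : c (phi C m) = phi C ((m &&& 3855) <<< 4) := by
  unfold phi
  rw [map_sum]
  have h1 : ∀ S ∈ Finset.range 16, c (if m.testBit S = true then C S else 0) =
      if m.testBit S = true then (if S.testBit 2 = true then 0 else C (S + 4)) else 0 := by
    intro S hS
    rw [← hC S (Finset.mem_range.1 hS)]
    split_ifs <;> simp
  rw [Finset.sum_congr rfl h1]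
  simp only [Finset.sum_range_succ, Finset.sum_range_zero, Nat.testBit_shiftLeft, Nat.testBit_and]
  simp [Nat.testBit]

theorem phi_a2 {C : ℕ → V} {c : Module.End F V}
    (hC : ∀ S < 16, c (C S) = if S.testBit 2 = true then C (S - 4) else 0)
    (m : ℕ) : c (phi C m) = phi C ((m >>> 4) &&& 3855) := by
  unfold phi
  rw [map_sum]
  have h1 : ∀ S ∈ Finset.range 16, c (if m.testBit S = true then C S else 0) =
      if m.testBit S = true then (if S.testBit 2 = true then C (S - 4) else 0) else 0 := by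
    intro S hS
    rw [← hC S (Finset.mem_range.1 hS)]
    split_ifs <;> simp
  rw [Finset.sum_congr rfl h1]
  simp only [Finset.sum_range_succ, Finset.sum_range_zero, Nat.testBit_shiftRight, Nat.testBit_and]
  simp [Nat.testBit]

theorem phi_c3 {C : ℕ → V} {c : Module.End F V}
    (hC : ∀ S < 16, c (C S) = if S.testBit 3 = true then 0 else C (S + 8))
    (m : ℕ) : c (phi C m) = phi C ((m &&& 255) <<< 8) := by
  unfold phi
  rw [map_sum]
  have h1 : ∀ S ∈ Finset.range 16, c (if m.testBit S = true then C S else 0) =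
      if m.testBit S = true then (if S.testBit 3 = true then 0 else C (S + 8)) else 0 := by
    intro S hS
    rw [← hC S (Finset.mem_range.1 hS)]
    split_ifs <;> simp
  rw [Finset.sum_congr rfl h1]
  simp only [Finset.sum_range_succ, Finset.sum_range_zero, Nat.testBit_shiftLeft, Nat.testBit_and]
  simp [Nat.testBit]

theorem phi_a3 {C : ℕ → V} {c : Module.End F V}
    (hC : ∀ S < 16, c (C S) = if S.testBit 3 = true then C (S - 8) else 0)
    (m : ℕ) : c (phi C m) = phi C ((m >>> 8) &&& 255) := by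
  unfold phi
  rw [map_sum]
  have h1 : ∀ S ∈ Finset.range 16, c (if m.testBit S = true then C S else 0) =
      if m.testBit S = true then (if S.testBit 3 = true then C (S - 8) else 0) else 0 := by
    intro S hS
    rw [← hC S (Finset.mem_range.1 hS)]
    split_ifs <;> simp
  rw [Finset.sum_congr rfl h1]
  simp only [Finset.sum_range_succ, Finset.sum_range_zero, Nat.testBit_shiftRight, Nat.testBit_and]
  simp [Nat.testBit]

/-- the basis of the Fock space -/
def CS (c0 c1 c2 c3 : Module.End F V) (v : V) (S : ℕ) : V :=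
  (if S.testBit 0 = true then c0 else 1) ((if S.testBit 1 = true then c1 else 1)
    ((if S.testBit 2 = true then c2 else 1) ((if S.testBit 3 = true then c3 else 1) v)))

/-- the relations -/
structure Fock (a0 a1 a2 a3 c0 c1 c2 c3 : Module.End F V) (v : V) : Prop where
  q0 : ∀ x, c0 (c0 x) = 0
  q1 : ∀ x, c1 (c1 x) = 0
  q2 : ∀ x, c2 (c2 x) = 0
  q3 : ∀ x, c3 (c3 x) = 0
  p10 : ∀ x, c1 (c0 x) = c0 (c1 x)
  p20 : ∀ x, c2 (c0 x) = c0 (c2 x)
  p30 : ∀ x, c3 (c0 x) = c0 (c3 x)
  p21 : ∀ x, c2 (c1 x) = c1 (c2 x)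
  p31 : ∀ x, c3 (c1 x) = c1 (c3 x)
  p32 : ∀ x, c3 (c2 x) = c2 (c3 x)
  d00 : ∀ x, a0 (c0 x) = x + c0 (a0 x)
  d01 : ∀ x, a0 (c1 x) = c1 (a0 x)
  d02 : ∀ x, a0 (c2 x) = c2 (a0 x)
  d03 : ∀ x, a0 (c3 x) = c3 (a0 x)
  d10 : ∀ x, a1 (c0 x) = c0 (a1 x)
  d11 : ∀ x, a1 (c1 x) = x + c1 (a1 x)
  d12 : ∀ x, a1 (c2 x) = c2 (a1 x)
  d13 : ∀ x, a1 (c3 x) = c3 (a1 x)
  d20 : ∀ x, a2 (c0 x) = c0 (a2 x)
  d21 : ∀ x, a2 (c1 x) = c1 (a2 x)
  d22 : ∀ x, a2 (c2 x) = x + c2 (a2 x)
  d23 : ∀ x, a2 (c3 x) = c3 (a2 x)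
  d30 : ∀ x, a3 (c0 x) = c0 (a3 x)
  d31 : ∀ x, a3 (c1 x) = c1 (a3 x)
  d32 : ∀ x, a3 (c2 x) = c2 (a3 x)
  d33 : ∀ x, a3 (c3 x) = x + c3 (a3 x)
  v0 : a0 v = 0
  v1 : a1 v = 0
  v2 : a2 v = 0
  v3 : a3 v = 0

namespace Fock

variable {a0 a1 a2 a3 c0 c1 c2 c3 : Module.End F V} {v : V} (k : Fock a0 a1 a2 a3 c0 c1 c2 c3 v)

include k

theorem C0 : ∀ S < 16, c0 (CS c0 c1 c2 c3 v S) =
    if S.testBit 0 = true then 0 else CS c0 c1 c2 c3 v (S + 1) := by
  intro S hS
  interval_cases S <;>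
    simp [CS, Nat.testBit, k.q0, k.q1, k.q2, k.q3, k.p10, k.p20, k.p30, k.p21, k.p31, k.p32]

theorem A0 : ∀ S < 16, a0 (CS c0 c1 c2 c3 v S) =
    if S.testBit 0 = true then CS c0 c1 c2 c3 v (S - 1) else 0 := by
  intro S hS
  interval_cases S <;>
    simp [CS, Nat.testBit, k.d00, k.d01, k.d02, k.d03, k.d10, k.d11, k.d12, k.d13, k.d20, k.d21, k.d22, k.d23,
      k.d30, k.d31, k.d32, k.d33, k.v0, k.v1, k.v2, k.v3]

theorem C1 : ∀ S < 16, c1 (CS c0 c1 c2 c3 v S) =
    if S.testBit 1 = true then 0 else CS c0 c1 c2 c3 v (S + 2) := by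
  intro S hS
  interval_cases S <;>
    simp [CS, Nat.testBit, k.q0, k.q1, k.q2, k.q3, k.p10, k.p20, k.p30, k.p21, k.p31, k.p32]

theorem A1 : ∀ S < 16, a1 (CS c0 c1 c2 c3 v S) =
    if S.testBit 1 = true then CS c0 c1 c2 c3 v (S - 2) else 0 := by
  intro S hS
  interval_cases S <;>
    simp [CS, Nat.testBit, k.d00, k.d01, k.d02, k.d03, k.d10, k.d11, k.d12, k.d13, k.d20, k.d21, k.d22, k.d23,
      k.d30, k.d31, k.d32, k.d33, k.v0, k.v1, k.v2, k.v3]

theorem C2 : ∀ S < 16, c2 (CS c0 c1 c2 c3 v S) =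
    if S.testBit 2 = true then 0 else CS c0 c1 c2 c3 v (S + 4) := by
  intro S hS
  interval_cases S <;>
    simp [CS, Nat.testBit, k.q0, k.q1, k.q2, k.q3, k.p10, k.p20, k.p30, k.p21, k.p31, k.p32]

theorem A2 : ∀ S < 16, a2 (CS c0 c1 c2 c3 v S) =
    if S.testBit 2 = true then CS c0 c1 c2 c3 v (S - 4) else 0 := by
  intro S hS
  interval_cases S <;>
    simp [CS, Nat.testBit, k.d00, k.d01, k.d02, k.d03, k.d10, k.d11, k.d12, k.d13, k.d20, k.d21, k.d22, k.d23,
      k.d30, k.d31, k.d32, k.d33, k.v0, k.v1, k.v2, k.v3]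

theorem C3 : ∀ S < 16, c3 (CS c0 c1 c2 c3 v S) =
    if S.testBit 3 = true then 0 else CS c0 c1 c2 c3 v (S + 8) := by
  intro S hS
  interval_cases S <;>
    simp [CS, Nat.testBit, k.q0, k.q1, k.q2, k.q3, k.p10, k.p20, k.p30, k.p21, k.p31, k.p32]

theorem A3 : ∀ S < 16, a3 (CS c0 c1 c2 c3 v S) =
    if S.testBit 3 = true then CS c0 c1 c2 c3 v (S - 8) else 0 := by
  intro S hS
  interval_cases S <;>
    simp [CS, Nat.testBit, k.d00, k.d01, k.d02, k.d03, k.d10, k.d11, k.d12, k.d13, k.d20, k.d21, k.d22, k.d23,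
      k.d30, k.d31, k.d32, k.d33, k.v0, k.v1, k.v2, k.v3]

end Fock

end Cfsg.Agent.H765.EPS
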