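import Cfsg.Agent.H765.EPS.Basic
import Cfsg.Agent.ClassicalGeometry.SympBasic
import Cfsg.Agent.S0765
import Cfsg.Agent.S0245

/-!
# The group `Sp₈(2)` (helper765)
-/

set_option autoImplicit false
set_option linter.unusedSectionVars false

namespace Cfsg.Agent.H765.EPS

open Matrix Cfsg.Agent.ClassicalGeometry.SympBasic

section

variable (K : Type*) [Field K]

/-- bit to field element -/
def bt (b : Bool) : K := if b = true then 1 else 0

/-- the vector of a number -/
def vec (n : ℕ) : Fin 4 ⊕ Fin 4 → K :=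
  Sum.elim (fun i => bt K (n.testBit i)) (fun i => bt K (n.testBit (4 + i)))

end

section

variable {K : Type*} [Field K]

theorem bt_xor (h2 : (2 : K) = 0) (a b : Bool) : bt K (a ^^ b) = bt K a + bt K b := by
  have h3 : (1 : K) + 1 = 0 := by rw [one_add_one_eq_two, h2]
  cases a <;> cases b <;> simp [bt, h3]

theorem bt_and (a b : Bool) : bt K (a && b) = bt K a * bt K b := by
  cases a <;> cases b <;> simp [bt]

theorem bt_inj {a b : Bool} (h : bt K a = bt K b) : a = b := by
  cases a <;> cases b <;> simp [bt] at h ⊢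

theorem vec_xor (h2 : (2 : K) = 0) (m n : ℕ) : vec K (m ^^^ n) = vec K m + vec K n := by
  funext i
  rcases i with i | i
  · show bt K _ = bt K _ + bt K _
    rw [Nat.testBit_xor, bt_xor h2]
  · show bt K _ = bt K _ + bt K _
    rw [Nat.testBit_xor, bt_xor h2]

theorem vec_inj {m n : ℕ} (hm : m < 256) (hn : n < 256) (h : vec K m = vec K n) : m = n := by
  apply Nat.eq_of_testBit_eq
  intro i
  by_cases h8 : 8 ≤ i
  · have h1 : m < 2 ^ i := lt_of_lt_of_le hm (show 2 ^ 8 ≤ 2 ^ i from Nat.pow_le_pow_right (by norm_num) h8)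
    have h2 : n < 2 ^ i := lt_of_lt_of_le hn (show 2 ^ 8 ≤ 2 ^ i from Nat.pow_le_pow_right (by norm_num) h8)
    rw [Nat.testBit_lt_two_pow h1, Nat.testBit_lt_two_pow h2]
  · push Not at h8
    by_cases h4 : i < 4
    · have h1 := congrFun h (Sum.inl ⟨i, h4⟩)
      exact bt_inj h1
    · have h1 := congrFun h (Sum.inr ⟨i - 4, by omega⟩)
      have h2 : 4 + (i - 4) = i := by omega
      have h3 : bt K (m.testBit (4 + (i - 4))) = bt K (n.testBit (4 + (i - 4))) := h1
      rw [h2] at h3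
      exact bt_inj h3

theorem vec_surj [Fintype K] (hK : Fintype.card K = 2) (w : Fin 4 ⊕ Fin 4 → K) : ∃ n < 256, vec K n = w := by
  have hinj : Function.Injective (fun n : Fin 256 => vec K (n : ℕ)) := fun m n h => Fin.ext (vec_inj m.2 n.2 h)
  have hbij := (Fintype.bijective_iff_injective_and_card (fun n : Fin 256 => vec K (n : ℕ))).2 ⟨hinj, by
    rw [Fintype.card_fin, Fintype.card_fun, hK, Fintype.card_sum, Fintype.card_fin]
    norm_num⟩
  obtain ⟨n, hn⟩ := hbij.2 w
  exact ⟨n, n.2, hn⟩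

theorem vec_zero : vec K 0 = 0 := by
  funext i
  rcases i with i | i
  · show bt K _ = 0
    simp [bt]
  · show bt K _ = 0
    simp [bt]

theorem form_vec (h2 : (2 : K) = 0) (m n : ℕ) : Cfsg.sympForm 4 K (vec K m) (vec K n) = bt K (sf m n) := by
  have h3 : ∀ x : K, -x = x := fun x => by
    rw [neg_eq_iff_add_eq_zero, ← two_mul, h2, zero_mul]
  rw [sympForm_eq_sum]
  have e : ∀ i : Fin 4, (vec K m (Sum.inr i) * vec K n (Sum.inl i) - vec K m (Sum.inl i) * vec K n (Sum.inr i)) =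
      bt K ((m.testBit i && n.testBit (4 + i)) ^^ (m.testBit (4 + i) && n.testBit i)) := by
    intro i
    rw [bt_xor h2, bt_and, bt_and, sub_eq_add_neg, h3, add_comm]
    rfl
  rw [Finset.sum_congr rfl fun i _ => e i, Fin.sum_univ_four]
  rw [← bt_xor h2, ← bt_xor h2, ← bt_xor h2]
  congr 1
  unfold sf par
  simp only [Nat.testBit_and, Nat.testBit_shiftRight]
  have b0 : (15 : ℕ).testBit 0 = true := by decide
  have b1 : (15 : ℕ).testBit 1 = true := by decide
  have b2 : (15 : ℕ).testBit 2 = true := by decide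
  have b3 : (15 : ℕ).testBit 3 = true := by decide
  rw [b0, b1, b2, b3]
  simp only [Bool.and_true]
  show _ = _
  have f0 : ((0 : Fin 4) : ℕ) = 0 := rfl
  have f1 : ((1 : Fin 4) : ℕ) = 1 := rfl
  have f2 : ((2 : Fin 4) : ℕ) = 2 := rfl
  have f3 : ((3 : Fin 4) : ℕ) = 3 := rfl
  rw [f0, f1, f2, f3]
  generalize m.testBit 0 = a0
  generalize m.testBit 1 = a1
  generalize m.testBit 2 = a2
  generalize m.testBit 3 = a3
  generalize n.testBit 0 = c0
  generalize n.testBit 1 = c1
  generalize n.testBit 2 = c2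
  generalize n.testBit 3 = c3
  generalize m.testBit (4 + 0) = d0
  generalize m.testBit (4 + 1) = d1
  generalize m.testBit (4 + 2) = d2
  generalize m.testBit (4 + 3) = d3
  generalize n.testBit (4 + 0) = g0
  generalize n.testBit (4 + 1) = g1
  generalize n.testBit (4 + 2) = g2
  generalize n.testBit (4 + 3) = g3
  cases (a0 && g0) <;> cases (a1 && g1) <;> cases (a2 && g2) <;> cases (a3 && g3) <;>
  cases (d0 && c0) <;> cases (d1 && c1) <;> cases (d2 && c2) <;> cases (d3 && c3) <;> rfl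

theorem sf_comm (m n : ℕ) : sf m n = sf n m := by
  unfold sf
  rw [Nat.land_comm (m &&& 15), Nat.land_comm (m >>> 4), Bool.xor_comm]

/-- the transvection of a number -/
def TT (K : Type*) [Field K] (n : ℕ) : Matrix.symplecticGroup (Fin 4) K := transv (vec K n) 1

theorem TT_vec (h2 : (2 : K) = 0) (m n : ℕ) :
    ((TT K m : Matrix.symplecticGroup (Fin 4) K) : Matrix (Fin 4 ⊕ Fin 4) (Fin 4 ⊕ Fin 4) K) *ᵥ vec K n = vec K (act m n) := by
  show Cfsg.sympTransvection 4 (vec K m) 1 *ᵥ vec K n = _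
  rw [sympTransvection_mulVec, form_vec h2, sf_comm, one_mul]
  unfold act
  by_cases h : sf m n = true
  · rw [if_pos h, h, vec_xor h2]
    simp [bt]
  · rw [if_neg h]
    have h' : sf m n = false := by simpa using h
    rw [h']
    simp [bt]

theorem TT_sq (h2 : (2 : K) = 0) (m : ℕ) : TT K m * TT K m = 1 := by
  apply Subtype.ext
  show Cfsg.sympTransvection 4 (vec K m) 1 * Cfsg.sympTransvection 4 (vec K m) 1 = 1
  rw [sympTransvection_mul, one_add_one_eq_two, h2, sympTransvection_zero]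

theorem TT_inv (h2 : (2 : K) = 0) (m : ℕ) : (TT K m)⁻¹ = TT K m := inv_eq_of_mul_eq_one_left (TT_sq h2 m)

theorem conj_TT {g : Matrix.symplecticGroup (Fin 4) K} {m n : ℕ}
    (h : (g : Matrix (Fin 4 ⊕ Fin 4) (Fin 4 ⊕ Fin 4) K) *ᵥ vec K m = vec K n) : g * TT K m * g⁻¹ = TT K n := by
  rw [mul_inv_eq_iff_eq_mul]
  apply Subtype.ext
  show (g : Matrix (Fin 4 ⊕ Fin 4) (Fin 4 ⊕ Fin 4) K) * Cfsg.sympTransvection 4 (vec K m) 1 =
    Cfsg.sympTransvection 4 (vec K n) 1 * (g : Matrix (Fin 4 ⊕ Fin 4) (Fin 4 ⊕ Fin 4) K)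
  rw [mul_sympTransvection g.2, h]

theorem TT_cj (h2 : (2 : K) = 0) (m n : ℕ) : TT K m * TT K n * TT K m = TT K (act m n) := by
  have h1 := conj_TT (TT_vec h2 m n)
  rwa [TT_inv h2] at h1

theorem prod_vec (h2 : (2 : K) = 0) (l : List ℕ) (n : ℕ) :
    (((l.map (TT K)).prod : Matrix.symplecticGroup (Fin 4) K) : Matrix (Fin 4 ⊕ Fin 4) (Fin 4 ⊕ Fin 4) K) *ᵥ vec K n = vec K (aw l n) := by
  induction l with
  | nil => exact Matrix.one_mulVec _
  | cons x l ih =>
    rw [List.map_cons, List.prod_cons, coe_mul_mulVec, ih, TT_vec h2]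
    rfl

theorem two_of_card [Fintype K] (hK : Fintype.card K = 2) : (2 : K) = 0 := by
  have h1 : ((Fintype.card K : ℕ) : K) = 0 := by
    have := FiniteField.cast_card_eq_zero K
    exact this
  rw [hK] at h1
  exact_mod_cast h1

/-- equality in the group can be checked on the vectors -/
theorem ext_vec [Fintype K] (hK : Fintype.card K = 2) {g k : Matrix.symplecticGroup (Fin 4) K}
    (h : ∀ n < 256, (g : Matrix (Fin 4 ⊕ Fin 4) (Fin 4 ⊕ Fin 4) K) *ᵥ vec K n = (k : Matrix (Fin 4 ⊕ Fin 4) (Fin 4 ⊕ Fin 4) K) *ᵥ vec K n) : g = k := by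
  apply Subtype.ext
  rw [← Matrix.mulVec_injective.eq_iff]
  funext w
  obtain ⟨n, hn, rfl⟩ := vec_surj hK w
  exact h n hn

theorem TT_seven [Fintype K] (hK : Fintype.card K = 2) :
    TT K 1 * TT K 4 * TT K 8 * TT K 5 * TT K 9 * TT K 12 * TT K 13 = 1 := by
  have h2 := two_of_card hK
  have h1 : TT K 1 * TT K 4 * TT K 8 * TT K 5 * TT K 9 * TT K 12 * TT K 13 =
      (([1, 4, 8, 5, 9, 12, 13] : List ℕ).map (TT K)).prod := by
    simp [mul_assoc]
  rw [h1]
  apply ext_vec hK
  intro n hn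
  rw [prod_vec h2]
  have h3 : ∀ n < 256, aw [1, 4, 8, 5, 9, 12, 13] n = n := by decide +kernel
  rw [h3 n hn]
  exact (Matrix.one_mulVec _).symm

theorem TT_gen [Fintype K] (hK : Fintype.card K = 2) :
    Subgroup.closure {g : Matrix.symplecticGroup (Fin 4) K | ∃ n, Ok n ∧ g = TT K n} = ⊤ := by
  rw [eq_top_iff, ← Cfsg.Agent.S0765.result 4, Subgroup.closure_le]
  rintro g ⟨w, c, e⟩
  have hc : c = 0 ∨ c = 1 := by
    classical
    by_contra hcon
    push Not at hcon
    have h1 : ({0, 1, c} : Finset K).card ≤ 2 := by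
      rw [← hK]
      exact Finset.card_le_univ _
    rw [Finset.card_eq_three.2 ⟨0, 1, c, zero_ne_one, hcon.1.symm, hcon.2.symm, rfl⟩] at h1
    omega
  rcases hc with rfl | rfl
  · rw [sympTransvection_zero] at e
    have : g = 1 := Subtype.ext e
    rw [this]
    exact one_mem _
  · obtain ⟨n, hn, rfl⟩ := vec_surj hK w
    by_cases h0 : n = 0
    · rw [h0, vec_zero] at e
      have h3 : Cfsg.sympTransvection 4 (0 : Fin 4 ⊕ Fin 4 → K) 1 = 1 := by
        rw [sympTransvection_def]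
        simp
      rw [h3] at e
      have : g = 1 := Subtype.ext e
      rw [this]
      exact one_mem _
    · exact Subgroup.subset_closure ⟨n, ⟨Nat.pos_of_ne_zero h0, hn⟩, Subtype.ext e⟩

end

end Cfsg.Agent.H765.EPS
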